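import Mathlib
import Cfsg.Agent.Lib.Helper48.EARank
import Cfsg.Agent.Lib.Helper48.RegUnipSp
import Cfsg.Agent.Lib.Helper44.LawEmbed
import Cfsg.Agent.Lib.Helper17.SympCoord

set_option autoImplicit false

namespace Cfsg.Agent.Lib.Helper48

open Module LinearMap Cfsg.Agent.Lib.Helper17

variable {F : Type*} [Field F] [Finite F]

/-- elementary abelian 2-subgroups of `Sp_{2n}(q)`, `q` odd, have order at most `2^n` -/
theorem card_le_of_elemAb_sp (h2 : (2 : F) ≠ 0) (n : ℕ)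
    (A : Subgroup (Matrix.symplecticGroup (Fin n) F)) (hc : ∀ a ∈ A, ∀ b ∈ A, a * b = b * a)
    (h : ∀ a ∈ A, a ^ 2 = 1) : Nat.card A ≤ 2 ^ n := by
  let φ : Matrix.symplecticGroup (Fin n) F → End F (Fin n ⊕ Fin n → F) :=
    fun a => Matrix.mulVecLin (a : Matrix (Fin n ⊕ Fin n) (Fin n ⊕ Fin n) F)
  have hφ : Function.Injective φ := fun a b hab => Subtype.ext (mulVecLin_inj hab)
  have hmul : ∀ a b, φ (a * b) = φ a * φ b := fun a b => Matrix.mulVecLin_mul _ _
  have hone : φ 1 = 1 := Matrix.mulVecLin_one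
  have hdim : finrank F (Fin n ⊕ Fin n → F) = 2 * n := by
    rw [Module.finrank_fintype_fun_eq_card]
    simp only [Fintype.card_sum, Fintype.card_fin]
    omega
  have h1 := sq_ncard_le h2 (2 * n) (Fin n ⊕ Fin n → F) (sympB n F) (sympB_isAlt n)
    (sympB_nondegenerate n).1 hdim (φ '' (A : Set (Matrix.symplecticGroup (Fin n) F)))
    (by
      rintro _ ⟨a, ha, rfl⟩
      rw [← hmul, ← pow_two, h a ha, hone])
    (by
      rintro _ ⟨a, -, rfl⟩
      exact isoB_mulVecLin a)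
    (by
      rintro _ ⟨a, ha, rfl⟩ _ ⟨b, hb, rfl⟩
      change φ a * φ b = φ b * φ a
      rw [← hmul, ← hmul, hc a ha b hb])
  rw [Set.ncard_image_of_injective _ hφ, mul_comm, pow_mul] at h1
  have h3 : (A : Set (Matrix.symplecticGroup (Fin n) F)).ncard = Nat.card A := rfl
  rw [h3] at h1
  exact (Nat.pow_le_pow_iff_left (by norm_num)).1 h1

/-- elementary abelian 2-subgroups of `GL_n(q)`, `q` odd, have order at most `2^n` -/
theorem card_le_of_elemAb_gl (h2 : (2 : F) ≠ 0) (n : ℕ)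
    (A : Subgroup (GL (Fin n) F)) (hc : ∀ a ∈ A, ∀ b ∈ A, a * b = b * a)
    (h : ∀ a ∈ A, a ^ 2 = 1) : Nat.card A ≤ 2 ^ n := by
  let ψ : GL (Fin n) F →* Matrix.symplecticGroup (Fin n) F :=
    Cfsg.Agent.Lib.Helper44.spHom (Units.coeHom (Matrix (Fin n) (Fin n) F))
  have hψ : Function.Injective ψ := Cfsg.Agent.Lib.Helper44.spHom_injective _ Units.val_injective
  rw [← Subgroup.card_map_of_injective (K := A) hψ]
  apply card_le_of_elemAb_sp h2
  · rintro _ ⟨a, ha, rfl⟩ _ ⟨b, hb, rfl⟩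
    rw [← map_mul, ← map_mul, hc a ha b hb]
  · rintro _ ⟨a, ha, rfl⟩
    rw [← map_pow, h a ha, map_one]

end Cfsg.Agent.Lib.Helper48
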