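import Mathlib
import Cfsg.Prelude.Def_Classical

set_option autoImplicit false

namespace Cfsg.Agent.Lib.Helper48

/-- a faithful linear representation preserving a function `Q` gives an embedding in the isometry
group of any coordinatisation of `Q` -/
theorem exists_hom_isometryGroup {G : Type*} [Group G] {ι : Type} [Fintype ι] [DecidableEq ι]
    {F : Type*} [Field F] {Y : Type*} [AddCommGroup Y] [Module F Y]
    (ρ : G →* Module.End F Y) (hρ : Function.Injective ρ) (Q : Y → F)
    (hQ : ∀ σ y, Q (ρ σ y) = Q y) (Q' : (ι → F) → F) (g : (ι → F) ≃ₗ[F] Y)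
    (hg : ∀ v, Q (g v) = Q' v) :
    ∃ φ : G →* ↥(Cfsg.isometryGroup F Q'), Function.Injective φ := by
  let M : G →* Matrix ι ι F :=
    { toFun := fun σ => LinearMap.toMatrix' ((g.symm : Y →ₗ[F] (ι → F)) ∘ₗ ρ σ ∘ₗ (g : (ι → F) →ₗ[F] Y))
      map_one' := by
        rw [map_one, ← LinearMap.toMatrix'_id]
        congr 1
        apply LinearMap.ext
        intro v
        simp
      map_mul' := by
        intro σ τ
        rw [map_mul, ← LinearMap.toMatrix'_comp]
        congr 1
        apply LinearMap.ext
        intro v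
        simp }
  have hM : ∀ σ v, Matrix.mulVec (M σ) v = g.symm (ρ σ (g v)) := by
    intro σ v
    simp only [M, MonoidHom.coe_mk, OneHom.coe_mk, LinearMap.toMatrix'_mulVec]
    rfl
  refine ⟨(M.toHomUnits).codRestrict _ (fun σ u _ => ?_), ?_⟩
  · change Q' (Matrix.mulVec (M σ) u) = Q' u
    rw [hM, ← hg, LinearEquiv.apply_symm_apply, hQ, hg]
  · intro σ τ h
    apply hρ
    have h1 : M σ = M τ := congrArg (fun x : ↥(Cfsg.isometryGroup F Q') =>
      ((x : Matrix.GeneralLinearGroup ι F) : Matrix ι ι F)) h
    apply LinearMap.ext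
    intro y
    have h2 := hM σ (g.symm y)
    rw [h1, hM, LinearEquiv.apply_symm_apply] at h2
    exact (g.symm.injective h2).symm

end Cfsg.Agent.Lib.Helper48
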