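import Mathlib
import Cfsg.Agent.S4623
import Cfsg.Agent.S4624
import Cfsg.Agent.Lib.Helper48.SLWreath

set_option autoImplicit false

namespace Cfsg.Agent.Lib.Helper48

open Matrix SemidirectProduct Cfsg.Agent.S4623 Cfsg.Agent.S4624
open scoped commutatorElement

/-- the product of the coordinates -/
def prodHom (Z : Type*) [CommGroup Z] (m : ℕ) : (Fin m → Z) →* Z where
  toFun d := ∏ i, d i
  map_one' := by simp
  map_mul' a b := by simp [Finset.prod_mul_distrib]

theorem prodHom_mulSingle {Z : Type*} [CommGroup Z] {m : ℕ} (x : Fin m) (u : Z) :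
    prodHom Z m (Pi.mulSingle x u) = u := Fintype.prod_pi_mulSingle' x u

theorem sq_mem_of_swap {Z K : Type*} [CommGroup Z] [Group K] {m : ℕ} (hm : 1 ≤ m)
    (T : Subgroup (Equiv.Perm (Fin m))) (jT : T →* K) (jB : (prodHom Z m).ker →* K)
    (hconj : ∀ (t : T) (d d' : (prodHom Z m).ker), (∀ i, d'.1 i = d.1 (t.1⁻¹ i)) →
      jT t * jB d * (jT t)⁻¹ = jB d')
    (hswap : ∀ x y : Fin m, ∃ t ∈ T, t x = y ∧ t y = x) (d : (prodHom Z m).ker) :
    (jB d) ^ 2 ∈ commutator K := by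
  classical
  have he : ∀ (x y : Fin m) (u : Z), Pi.mulSingle x u * Pi.mulSingle y u⁻¹ ∈ (prodHom Z m).ker := by
    intro x y u
    rw [MonoidHom.mem_ker, map_mul, prodHom_mulSingle, prodHom_mulSingle, mul_inv_cancel]
  have step1 : ∀ (x y : Fin m) (u : Z),
      (jB ⟨Pi.mulSingle x u * Pi.mulSingle y u⁻¹, he x y u⟩) ^ 2 ∈ commutator K := by
    intro x y u
    obtain ⟨t, ht, htx, hty⟩ := hswap x y
    set ee : (prodHom Z m).ker := ⟨Pi.mulSingle x u * Pi.mulSingle y u⁻¹, he x y u⟩ with hee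
    have h1 := hconj ⟨t, ht⟩ ee ee⁻¹ (by
      intro i
      change (Pi.mulSingle x u * Pi.mulSingle y u⁻¹ : Fin m → Z)⁻¹ i =
        (Pi.mulSingle x u * Pi.mulSingle y u⁻¹ : Fin m → Z) (t⁻¹ i)
      simp only [Pi.inv_apply, Pi.mul_apply, Pi.mulSingle_apply, Equiv.Perm.inv_eq_iff_eq, htx, hty]
      split_ifs <;> simp)
    have h2 : ⁅jT ⟨t, ht⟩, jB ee⁆ ∈ commutator K :=
      Subgroup.commutator_mem_commutator (Subgroup.mem_top _) (Subgroup.mem_top _)
    rw [commutatorElement_def, h1, map_inv] at h2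
    have h3 : (jB ee) ^ 2 = ((jB ee)⁻¹ * (jB ee)⁻¹)⁻¹ := by
      rw [pow_two, _root_.mul_inv_rev, inv_inv]
    rw [h3]
    exact inv_mem h2
  let y₀ : Fin m := ⟨0, hm⟩
  have hd : d = ∏ x, (⟨Pi.mulSingle x (d.1 x) * Pi.mulSingle y₀ (d.1 x)⁻¹, he x y₀ (d.1 x)⟩ :
      (prodHom Z m).ker) := by
    apply Subtype.ext
    rw [Subgroup.val_finsetProd]
    simp only
    rw [Finset.prod_mul_distrib, Finset.univ_prod_mulSingle]
    have h1 : ∏ x, Pi.mulSingle (M := fun _ => Z) y₀ (d.1 x)⁻¹ = 1 := by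
      have h2 := map_prod (MonoidHom.mulSingle (fun _ : Fin m => Z) y₀) (fun x => (d.1 x)⁻¹)
        Finset.univ
      have h3 : ∏ x, (d.1 x)⁻¹ = 1 := by
        rw [Finset.prod_inv_distrib]
        have : ∏ x, d.1 x = 1 := d.2
        rw [this, inv_one]
      rw [h3, map_one] at h2
      exact h2.symm
    rw [h1, mul_one]
  have hL : ∀ x, (⟨Pi.mulSingle x (d.1 x) * Pi.mulSingle y₀ (d.1 x)⁻¹, he x y₀ (d.1 x)⟩ :
      (prodHom Z m).ker) ^ 2 ∈ (commutator K).comap jB := by
    intro x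
    rw [Subgroup.mem_comap, map_pow]
    exact step1 x y₀ (d.1 x)
  have hfin := Subgroup.prod_mem ((commutator K).comap jB) (fun x (_ : x ∈ Finset.univ) => hL x)
  rw [Finset.prod_pow, ← hd, Subgroup.mem_comap, map_pow] at hfin
  exact hfin

variable {F : Type*} [Field F] {m : ℕ}

/-- `det` on a subgroup -/
def detS (S : Subgroup (GL (Fin 2) F)) : S →* Fˣ := Matrix.GeneralLinearGroup.det.comp S.subtype

theorem ExT_ker_wreath (S : Subgroup (GL (Fin 2) F)) (T : Subgroup (Equiv.Perm (Fin m)))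
    (Z : Subgroup Fˣ) (hZS : ∀ z ∈ Z, betaGL F z ∈ S) (hSZ : ∀ g : S, detS S g ∈ Z)
    (hQ : ExT 2 (detS S).ker) (hT : ExT 2 T)
    (hcase : (∀ z ∈ Z, z ^ 2 = 1) ∨ (∀ x y : Fin m, ∃ t ∈ T, t x = y ∧ t y = x)) (hm : 1 ≤ m)
    (δ : (Fin m → S) ⋊[(mulAutArrow : T →* MulAut (Fin m → S))] T →* Fˣ)
    (hδ1 : ∀ s, δ (inl s) = ∏ i, detS S (s i)) (hδ2 : ∀ t, δ (inr t) = 1) :
    ExT 2 δ.ker := by
  classical
  let β' : Z →* S := ((betaGL F).comp Z.subtype).codRestrict S (fun z => hZS z.1 z.2)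
  have hβdet : ∀ z : Z, detS S (β' z) = z.1 := fun z => betaGL_det z.1
  let jT : T →* δ.ker := (inr).codRestrict δ.ker (fun t => hδ2 t)
  let jQ : (Fin m → (detS S).ker) →* δ.ker :=
    (inl.comp (MonoidHom.piMap fun _ => (detS S).ker.subtype)).codRestrict δ.ker (fun s => by
      change δ (inl _) = 1
      rw [hδ1]
      exact Finset.prod_eq_one (fun i _ => (s i).2))
  let jB : (prodHom Z m).ker →* δ.ker :=
    (inl.comp ((MonoidHom.piMap fun _ => β').comp (prodHom Z m).ker.subtype)).codRestrict δ.ker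
    (fun d => by
      change δ (inl (fun i => β' (d.1 i))) = 1
      rw [hδ1]
      simp only [hβdet]
      have h1 : ∏ i, d.1 i = 1 := d.2
      have h2 := congrArg Subtype.val h1
      rw [Subgroup.val_finsetProd] at h2
      exact h2)
  have hB : ∀ d : (prodHom Z m).ker, (jB d) ^ 2 ∈ commutator δ.ker := by
    rcases hcase with hc | hc
    · intro d
      have : d ^ 2 = 1 := by
        apply Subtype.ext
        funext i
        apply Subtype.ext
        exact hc _ (d.1 i).2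
      rw [← map_pow, this, map_one]
      exact one_mem _
    · apply sq_mem_of_swap hm T jT jB _ hc
      intro t d d' hdd
      apply Subtype.ext
      change inr t * inl (fun i => β' (d.1 i)) * (inr t)⁻¹ = inl (fun i => β' (d'.1 i))
      rw [← map_inv, ← SemidirectProduct.inl_aut]
      congr 1
      funext i
      rw [hdd i]
      rfl
  intro x
  have hx : δ x.1 = 1 := x.2
  rw [← inl_left_mul_inr_right x.1, map_mul, hδ2, mul_one, hδ1] at hx
  let d : Fin m → Z := fun i => ⟨detS S (x.1.left i), hSZ _⟩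
  have hd : d ∈ (prodHom Z m).ker := by
    apply Subtype.ext
    change ((∏ i, d i : Z) : Fˣ) = 1
    rw [Subgroup.val_finsetProd]
    exact hx
  let s' : Fin m → (detS S).ker := fun i => ⟨(β' (d i))⁻¹ * x.1.left i, by
    rw [MonoidHom.mem_ker, map_mul, map_inv, hβdet]
    exact inv_mul_cancel _⟩
  have hdec : x = jB ⟨d, hd⟩ * jQ s' * jT x.1.right := by
    apply Subtype.ext
    change x.1 = inl (fun i => β' (d i)) * inl (fun i => (s' i).1) * inr x.1.right
    rw [← map_mul]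
    conv_lhs => rw [← inl_left_mul_inr_right x.1]
    congr 2
    funext i
    change x.1.left i = β' (d i) * ((β' (d i))⁻¹ * x.1.left i)
    rw [mul_inv_cancel_left]
  rw [hdec]
  apply mul_pow_mem (mul_pow_mem (hB _) _)
  · rw [← map_pow]
    exact map_comm_le jT ⟨_, hT _, rfl⟩
  · rw [← map_pow]
    exact map_comm_le jQ ⟨_, ExT_pi hQ _, rfl⟩

end Cfsg.Agent.Lib.Helper48
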