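import Mathlib
import Cfsg.Agent.Lib.Helper48.L3Class

set_option autoImplicit false
set_option linter.unusedSectionVars false
set_option linter.style.haveILetI false

namespace Cfsg.Agent.Lib.Helper48

open Module Polynomial

universe u

variable {F : Type u} [Field F] [Fintype F]

theorem pow_apply_eigen' {V : Type*} [AddCommGroup V] [Module F V] {T : End F V} {v : V} {a : F}
    (h : T v = a • v) (j : ℕ) : (T ^ j) v = a ^ j • v := by
  induction j with
  | zero => simp
  | succ k ih => rw [pow_succ', Module.End.mul_apply, ih, map_smul, h, smul_smul, pow_succ]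

theorem toLin3_apply' (M : Matrix (Fin 3) (Fin 3) F) (x : Fin 3 → F) (i : Fin 3) :
    Matrix.toLin' M x i = M i 0 * x 0 + M i 1 * x 1 + M i 2 * x 2 := by
  simp [Matrix.toLin'_apply, Matrix.mulVec, dotProduct, Fin.sum_univ_three]

/-- an operator of determinant one whose order is divisible by `M` gives an element of `PSL_n(q)`
of order divisible by `M / (n, q-1)` -/
theorem exists_PSL_dvd_of_op {n : ℕ} (hn : 1 ≤ n) (T : End F (Fin n → F))
    (hdet : LinearMap.det T = 1) {M : ℕ} (hM : ∀ j, T ^ j = 1 → M ∣ j)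
    (hd : Nat.gcd n (Fintype.card F - 1) ∣ M) :
    ∃ y : Matrix.ProjectiveSpecialLinearGroup (Fin n) F,
      M / Nat.gcd n (Fintype.card F - 1) ∣ orderOf y := by
  have : Nonempty (Fin n) := ⟨⟨0, hn⟩⟩
  have hd' : (LinearMap.toMatrix' T).det = 1 := by rw [LinearMap.det_toMatrix', hdet]
  have h1 := pord_of_mk (⟨LinearMap.toMatrix' T, hd'⟩ : Matrix.SpecialLinearGroup (Fin n) F)
  have h2 : Matrix.toLin' ((⟨LinearMap.toMatrix' T, hd'⟩ : Matrix.SpecialLinearGroup (Fin n) F) :
      Matrix (Fin n) (Fin n) F) = T := Matrix.toLin'_toMatrix' T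
  rw [h2] at h1
  refine ⟨QuotientGroup.mk (⟨LinearMap.toMatrix' T, hd'⟩ : Matrix.SpecialLinearGroup (Fin n) F), ?_⟩
  set a := orderOf (QuotientGroup.mk (⟨LinearMap.toMatrix' T, hd'⟩ :
    Matrix.SpecialLinearGroup (Fin n) F) : Matrix.ProjectiveSpecialLinearGroup (Fin n) F) with ha
  obtain ⟨c, hc⟩ := (h1 a).2 dvd_rfl
  have hcn : c ^ n = 1 := by
    have h3 := congrArg LinearMap.det hc
    rw [map_pow, hdet, one_pow, LinearMap.det_smul, map_one, mul_one, Module.finrank_fin_fun] at h3
    exact h3.symm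
  have hc0 : c ≠ 0 := by
    rintro rfl
    rw [zero_pow (by omega)] at hcn
    exact zero_ne_one hcn
  have hcq : c ^ (Fintype.card F - 1) = 1 := FiniteField.pow_card_sub_one_eq_one c hc0
  have hcg : c ^ Nat.gcd n (Fintype.card F - 1) = 1 := pow_gcd_eq_one.2 ⟨hcn, hcq⟩
  have h4 : T ^ (a * Nat.gcd n (Fintype.card F - 1)) = 1 := by
    rw [pow_mul, hc, _root_.smul_pow, one_pow, hcg, one_smul]
  have h5 := hM _ h4
  have hpos : 0 < Nat.gcd n (Fintype.card F - 1) := Nat.gcd_pos_of_pos_left _ (by omega)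
  apply Nat.dvd_of_mul_dvd_mul_right hpos
  rwa [Nat.div_mul_cancel hd]

theorem exists_gen' : ∃ g : Fˣ, orderOf g = Fintype.card F - 1 := by
  obtain ⟨g, hg⟩ := exists_units_orderOf_eq F
  exact ⟨g, by rw [hg, Nat.card_eq_fintype_card]⟩

theorem exists_psl3_torus2 :
    ∃ y : Matrix.ProjectiveSpecialLinearGroup (Fin 3) F,
      (Fintype.card F ^ 2 - 1) / Nat.gcd 3 (Fintype.card F - 1) ∣ orderOf y := by
  have hq2 : 2 ≤ Fintype.card F := Fintype.one_lt_card
  obtain ⟨g, hg⟩ := exists_GL_orderOf_singer (F := F) 2 2 (by norm_num) le_rfl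
  rw [Nat.card_eq_fintype_card] at hg
  set δ : F := (g : Matrix (Fin 2) (Fin 2) F).det with hδ
  have hδ0 : δ ≠ 0 := by
    have := (Matrix.isUnit_iff_isUnit_det _).1 g.isUnit
    exact this.ne_zero
  have hV : finrank F ((Fin 2 → F) × (Fin 1 → F)) = finrank F (Fin 3 → F) := by
    rw [finrank_prod, Module.finrank_fin_fun, Module.finrank_fin_fun, Module.finrank_fin_fun]
  let φ : ((Fin 2 → F) × (Fin 1 → F)) ≃ₗ[F] (Fin 3 → F) := LinearEquiv.ofFinrankEq _ _ hV
  apply exists_PSL_dvd_of_op (by norm_num)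
    (φ.conj (LinearMap.prodMap (opGL g) (δ⁻¹ • (1 : End F (Fin 1 → F)))))
  · rw [det_conj', LinearMap.det_prodMap, det_opGL, LinearMap.det_smul, map_one, mul_one,
      Module.finrank_fin_fun, pow_one, ← hδ, mul_inv_cancel₀ hδ0]
  · intro j hj
    rw [conj_pow', ← conj_one' φ] at hj
    have h1 := φ.conj.injective hj
    rw [prodMap_pow'] at h1
    have h2 : (opGL g) ^ j = 1 := by
      apply LinearMap.ext
      intro v
      have := congrArg (fun f : End F ((Fin 2 → F) × (Fin 1 → F)) => (f (v, 0)).1) h1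
      simpa using this
    rw [← hg]
    exact (opGL_pow_eq_one_iff g j).1 h2
  · have hfac : Fintype.card F ^ 2 - 1 = (Fintype.card F - 1) * (Fintype.card F + 1) := by
      obtain ⟨r, hr⟩ : ∃ r, Fintype.card F = r + 1 := ⟨Fintype.card F - 1, by omega⟩
      rw [hr]
      simp only [Nat.add_sub_cancel]
      have : (r + 1) ^ 2 = r * (r + 1 + 1) + 1 := by ring
      omega
    rw [hfac]
    exact Dvd.dvd.mul_right (Nat.gcd_dvd_right _ _) _

theorem exists_psl3_split :
    ∃ y : Matrix.ProjectiveSpecialLinearGroup (Fin 3) F, Fintype.card F - 1 ∣ orderOf y := by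
  obtain ⟨z, hz⟩ := exists_gen' (F := F)
  set T : End F (Fin 3 → F) := Matrix.toLin' (Matrix.diagonal ![(z : F), (z : F)⁻¹, 1]) with hT
  have hTa : ∀ x i, T x i = ![(z : F), (z : F)⁻¹, 1] i * x i := by
    intro x i
    rw [hT, Matrix.toLin'_apply, Matrix.mulVec_diagonal]
  have hdet : LinearMap.det T = 1 := by
    rw [hT, LinearMap.det_toLin', Matrix.det_diagonal, Fin.prod_univ_three]
    simp
  have hd' : (LinearMap.toMatrix' T).det = 1 := by rw [LinearMap.det_toMatrix', hdet]
  have h1 := pord_of_mk (⟨LinearMap.toMatrix' T, hd'⟩ : Matrix.SpecialLinearGroup (Fin 3) F)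
  have h2 : Matrix.toLin' ((⟨LinearMap.toMatrix' T, hd'⟩ : Matrix.SpecialLinearGroup (Fin 3) F) :
      Matrix (Fin 3) (Fin 3) F) = T := Matrix.toLin'_toMatrix' T
  rw [h2] at h1
  refine ⟨QuotientGroup.mk (⟨LinearMap.toMatrix' T, hd'⟩ : Matrix.SpecialLinearGroup (Fin 3) F), ?_⟩
  obtain ⟨c, hc⟩ := (h1 _).2 dvd_rfl
  set j := orderOf (QuotientGroup.mk (⟨LinearMap.toMatrix' T, hd'⟩ :
    Matrix.SpecialLinearGroup (Fin 3) F) : Matrix.ProjectiveSpecialLinearGroup (Fin 3) F) with hj
  have h5 : T (Pi.single 0 1) = (z : F) • (Pi.single 0 1 : Fin 3 → F) := by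
    funext i
    rw [hTa]
    fin_cases i <;> simp
  have h6 : T (Pi.single 2 1) = (1 : F) • (Pi.single 2 1 : Fin 3 → F) := by
    funext i
    rw [hTa]
    fin_cases i <;> simp
  have h7 := congrFun (pow_apply_eigen' h5 j) 0
  have h8 := congrFun (pow_apply_eigen' h6 j) 2
  rw [hc] at h7 h8
  simp at h7 h8
  rw [← hz]
  apply orderOf_dvd_of_pow_eq_one
  apply Units.ext
  rw [Units.val_pow_eq_pow_val, ← h7, h8, Units.val_one]

theorem exists_psl3_mixed (p : ℕ) [Fact p.Prime] [CharP F p] :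
    ∃ y : Matrix.ProjectiveSpecialLinearGroup (Fin 3) F,
      p * (Fintype.card F - 1) / Nat.gcd 3 (Fintype.card F - 1) ∣ orderOf y := by
  have hq2 : 2 ≤ Fintype.card F := Fintype.one_lt_card
  obtain ⟨z, hz⟩ := exists_gen' (F := F)
  set a : F := (z : F) with ha
  have ha0 : a ≠ 0 := z.ne_zero
  set T : End F (Fin 3 → F) := Matrix.toLin' !![a, a, 0; 0, a, 0; 0, 0, (a * a)⁻¹] with hT
  have hT0 : ∀ x, T x 0 = a * x 0 + a * x 1 := by
    intro x
    rw [hT, toLin3_apply']
    simp
  have hT1 : ∀ x, T x 1 = a * x 1 := by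
    intro x
    rw [hT, toLin3_apply']
    simp
  have hT2 : ∀ x, T x 2 = (a * a)⁻¹ * x 2 := by
    intro x
    rw [hT, toLin3_apply']
    simp
  apply exists_PSL_dvd_of_op (by norm_num) T
  · rw [hT, LinearMap.det_toLin', Matrix.det_fin_three]
    simp
    field_simp
  · intro j h4
    have h5 : T (Pi.single 0 1) = a • (Pi.single 0 1 : Fin 3 → F) := by
      funext i
      fin_cases i
      · simp [hT0]
      · simp [hT1]
      · simp [hT2]
    have h6 := pow_apply_eigen' h5 j
    rw [h4] at h6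
    have h7 := congrFun h6 0
    have haj : a ^ j = 1 := by simpa using h7.symm
    have h8 : ∀ m : ℕ, (T ^ m) (Pi.single 1 1) =
        a ^ m • (Pi.single 1 1 : Fin 3 → F) + ((m : F) * a ^ m) • (Pi.single 0 1 : Fin 3 → F) := by
      intro m
      induction m with
      | zero => simp
      | succ r ih =>
        rw [pow_succ', Module.End.mul_apply, ih]
        funext i
        fin_cases i
        · simp [hT0]
          ring
        · simp [hT1]
          ring
        · simp [hT2]
    have h9 := congrFun (h8 j) 0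
    rw [h4] at h9
    simp [haj] at h9
    have hpj : p ∣ j := (CharP.cast_eq_zero_iff F p j).1 h9.symm
    have hqj : Fintype.card F - 1 ∣ j := by
      rw [← hz]
      apply orderOf_dvd_of_pow_eq_one
      apply Units.ext
      rw [Units.val_pow_eq_pow_val, ← ha, haj, Units.val_one]
    have hcop : Nat.Coprime p (Fintype.card F - 1) := by
      rw [(Fact.out : p.Prime).coprime_iff_not_dvd]
      intro h
      have hpq : p ∣ Fintype.card F := char_dvd_card p
      have := (Nat.dvd_sub hpq h)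
      rw [show Fintype.card F - (Fintype.card F - 1) = 1 by omega] at this
      exact (Fact.out : p.Prime).one_lt.ne' (Nat.dvd_one.1 this)
    exact hcop.mul_dvd_of_dvd_of_dvd hpj hqj
  · exact Dvd.dvd.mul_left (Nat.gcd_dvd_right _ _) p

end Cfsg.Agent.Lib.Helper48
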