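import Mathlib

set_option autoImplicit false
set_option linter.unusedSectionVars false

namespace Cfsg.Agent.Lib.Helper48

variable {F : Type*} [Field F] [Fintype F]

theorem eq_one_of_ne_zero_of_card_two (hF : Fintype.card F = 2) (x : F) (hx : x ≠ 0) : x = 1 := by
  classical
  by_contra h1
  have h3 : ({0, 1, x} : Finset F).card ≤ Fintype.card F := Finset.card_le_univ _
  rw [Finset.card_insert_of_notMem (by simp [hx.symm]),
    Finset.card_insert_of_notMem (by simpa using Ne.symm h1), Finset.card_singleton, hF] at h3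
  omega

/-- over the field with two elements `GL_n = SL_n = PSL_n` -/
theorem nonempty_GL_mulEquiv_PSL (hF : Fintype.card F = 2) (n : ℕ) :
    Nonempty (GL (Fin n) F ≃* Matrix.ProjectiveSpecialLinearGroup (Fin n) F) := by
  have h1 : Function.Bijective
      (Matrix.SpecialLinearGroup.toGL : Matrix.SpecialLinearGroup (Fin n) F →* GL (Fin n) F) := by
    refine ⟨Matrix.SpecialLinearGroup.toGL_injective, ?_⟩
    intro g
    have hdet : (g : Matrix (Fin n) (Fin n) F).det = 1 := by
      apply eq_one_of_ne_zero_of_card_two hF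
      have := (Matrix.isUnit_iff_isUnit_det (g : Matrix (Fin n) (Fin n) F)).1 g.isUnit
      exact this.ne_zero
    exact ⟨⟨(g : Matrix (Fin n) (Fin n) F), hdet⟩, Units.ext rfl⟩
  have hc : Subgroup.center (Matrix.SpecialLinearGroup (Fin n) F) = ⊥ := by
    rw [eq_bot_iff]
    intro A hA
    obtain ⟨r, hr, hrA⟩ := Matrix.SpecialLinearGroup.mem_center_iff.1 hA
    rw [Subgroup.mem_bot]
    rcases Nat.eq_zero_or_pos n with rfl | hn
    · exact Subsingleton.elim _ _
    have hr1 : r = 1 := by
      apply eq_one_of_ne_zero_of_card_two hF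
      rintro rfl
      rw [Fintype.card_fin, zero_pow hn.ne'] at hr
      exact zero_ne_one hr
    apply Subtype.ext
    rw [← hrA, hr1]
    simp
  have h2 : Function.Bijective (QuotientGroup.mk' (Subgroup.center
      (Matrix.SpecialLinearGroup (Fin n) F))) := by
    refine ⟨?_, QuotientGroup.mk'_surjective _⟩
    rw [← MonoidHom.ker_eq_bot_iff, QuotientGroup.ker_mk', hc]
  exact ⟨(MulEquiv.ofBijective _ h1).symm.trans (MulEquiv.ofBijective _ h2)⟩

end Cfsg.Agent.Lib.Helper48
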