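import Mathlib
import Cfsg.Agent.Lib.Helper48.L3Class
import Cfsg.Agent.Lib.Helper65.PrimeGraphSL

set_option autoImplicit false
set_option linter.unusedSectionVars false
set_option linter.style.haveILetI false

namespace Cfsg.Agent.Lib.Helper48

open Module Polynomial

universe u

variable {F : Type u} [Field F] [Fintype F] {V : Type u} [AddCommGroup V] [Module F V]

/-- irreducible operator of determinant one: projective order divides the Singer number -/
theorem scalar_of_irr_full [FiniteDimensional F V] {T : End F V} {f : F[X]} (hf : Irreducible f)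
    (hfm : f.Monic) (h0 : aeval T f = 0) (hdeg : f.natDegree = finrank F V)
    (hdet : LinearMap.det T = 1) :
    ∃ c : F, T ^ (((Fintype.card F ^ finrank F V - 1) / (Fintype.card F - 1)) /
      Nat.gcd (finrank F V) (Fintype.card F - 1)) = c • (1 : End F V) := by
  set q := Fintype.card F with hq
  have hq2 : 2 ≤ q := Fintype.one_lt_card
  have hpos : 0 < finrank F V := hdeg ▸ hf.natDegree_pos
  have hnt : Nontrivial V := Module.nontrivial_of_finrank_pos (R := F) hpos
  have h2 := pow_eq_one_of_det_eq_one (T := T) hf hfm h0 hdeg hdet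
  apply scalar_of_pow_card_irr hf h0
  have h5 := pow_div_pow_succ T _ (Nat.gcd (finrank F V) (q - 1)) (q - 1)
    (gcd_dvd_geom q (finrank F V) hq2) (Nat.gcd_dvd_right _ (q - 1)) h2
  rwa [show q - 1 + 1 = q by omega] at h5

/-- an operator whose projective order is divisible by a primitive prime divisor of `q^n - 1` -/
theorem scalar_of_ppd [FiniteDimensional F V] {T : End F V} (hdet : LinearMap.det T = 1) {a : ℕ}
    (ha0 : 0 < a) (ha : POrd T a) {s : ℕ} (hs : s.Prime) (hsa : s ∣ a) (hn : 2 ≤ finrank F V)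
    (hs1 : s ∣ Fintype.card F ^ finrank F V - 1)
    (hs2 : ∀ k, 0 < k → k < finrank F V → ¬ s ∣ Fintype.card F ^ k - 1) :
    a ∣ ((Fintype.card F ^ finrank F V - 1) / (Fintype.card F - 1)) /
      Nat.gcd (finrank F V) (Fintype.card F - 1) := by
  classical
  haveI : Fact s.Prime := ⟨hs⟩
  set q := Fintype.card F with hq
  set n := finrank F V with hn'
  have hq2 : 2 ≤ q := Fintype.one_lt_card
  have hnt : Nontrivial V := Module.nontrivial_of_finrank_pos (R := F) (by omega)
  have hsq : ¬ s ∣ q := by
    intro h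
    have h1 : s ∣ q ^ n := Dvd.dvd.trans h (dvd_pow_self q (by omega))
    have h2 : 1 ≤ q ^ n := Nat.one_le_pow _ _ (by omega)
    have h3 := Nat.dvd_sub h1 hs1
    rw [show q ^ n - (q ^ n - 1) = 1 by omega] at h3
    exact hs.one_lt.ne' (Nat.dvd_one.1 h3)
  have ho : orderOf ((q : ℕ) : ZMod s) = n := by
    have h1 : orderOf ((q : ℕ) : ZMod s) ∣ n :=
      Cfsg.Agent.Lib.Helper65.UnipCent.orderOf_dvd_of_dvd_pow_sub_one (by omega) hs1
    have h2 : 0 < orderOf ((q : ℕ) : ZMod s) := Nat.pos_of_dvd_of_pos h1 (by omega)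
    have h3 : s ∣ q ^ orderOf ((q : ℕ) : ZMod s) - 1 :=
      Cfsg.Agent.Lib.Helper65.UnipCent.dvd_pow_orderOf_sub_one (by omega)
    have h4 : ¬ orderOf ((q : ℕ) : ZMod s) < n := fun h => hs2 _ h2 h h3
    exact le_antisymm (Nat.le_of_dvd (by omega) h1) (not_lt.1 h4)
  obtain ⟨a', rfl⟩ := hsa
  have ha'0 : 0 < a' := Nat.pos_of_mul_pos_left ha0 |> fun h => by
    rcases Nat.eq_zero_or_pos a' with h0 | h0
    · rw [h0, mul_zero] at ha0; omega
    · exact h0
  obtain ⟨c, hc⟩ := (ha (s * a')).2 dvd_rfl
  have hu : IsUnit T := isUnit_of_det_eq_one hdet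
  have hc0 : c ≠ 0 := smul_one_ne_zero_of_isUnit (V := V) (hc ▸ hu.pow _)
  set U := T ^ ((q - 1) * a') with hU
  have hUs : U ^ s = 1 := by
    rw [hU, ← pow_mul, show (q - 1) * a' * s = (s * a') * (q - 1) by ring, pow_mul, hc,
      _root_.smul_pow, one_pow, FiniteField.pow_card_sub_one_eq_one c hc0, one_smul]
  have hU1 : U ≠ 1 := by
    intro h
    have h1 : s * a' ∣ (q - 1) * a' := (ha _).1 ⟨1, by rw [one_smul]; exact h⟩
    have h2 : s ∣ q - 1 := Nat.dvd_of_mul_dvd_mul_right ha'0 h1
    exact hs2 1 (by norm_num) (by omega) (by simpa using h2)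
  have hTU : Commute T U := (Commute.refl T).pow_right _
  have hker : LinearMap.ker (U - 1) = ⊥ := by
    have h1 := Cfsg.Agent.Lib.Helper65.UnipCent.orderOf_dvd_finrank_sub hsq U hUs ⊤
      (fun _ _ => Submodule.mem_top)
    rw [← hq, ho, top_inf_eq, finrank_top] at h1
    have h2 : finrank F (LinearMap.ker (U - 1)) < n := by
      apply Submodule.finrank_lt
      intro h
      apply hU1
      have := LinearMap.ker_eq_top.1 h
      exact sub_eq_zero.1 this
    have h3 := Nat.le_of_dvd (by omega) h1
    exact Submodule.finrank_eq_zero.1 (by omega)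
  have hinv : ∀ W : Submodule F V, (∀ w ∈ W, T w ∈ W) → W ≠ ⊥ → W = ⊤ := by
    intro W hW hW0
    have hWU : ∀ w ∈ W, U w ∈ W := by
      intro w hw
      rw [hU]
      generalize (q - 1) * a' = j
      induction j with
      | zero => simpa using hw
      | succ k ih => rw [pow_succ', Module.End.mul_apply]; exact hW _ ih
    have h1 := Cfsg.Agent.Lib.Helper65.UnipCent.orderOf_dvd_finrank_sub hsq U hUs W hWU
    rw [← hq, ho, hker, inf_bot_eq, finrank_bot, Nat.sub_zero] at h1
    have h2 : 0 < finrank F W := by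
      rw [Nat.pos_iff_ne_zero, Ne, Submodule.finrank_eq_zero]
      exact hW0
    have h3 := Nat.le_of_dvd h2 h1
    exact Submodule.eq_top_of_finrank_eq (le_antisymm (Submodule.finrank_le W) h3)
  obtain ⟨f, hfm, hfirr, hfd⟩ := Polynomial.exists_monic_irreducible_factor T.charpoly (by
    intro h
    have := natDegree_eq_zero_of_isUnit h
    rw [LinearMap.charpoly_natDegree] at this
    omega)
  obtain ⟨v, hv0, hv⟩ := Cfsg.Agent.Lib.Helper50.SemiConj.exists_ne_zero_aeval T f hfirr hfd
  have h0 : aeval T f = 0 := by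
    have h1 := hinv (LinearMap.ker (aeval T f))
      (fun w hw => ker_aeval_invariant (Commute.refl T) f w hw) (by
        intro h
        apply hv0
        have : v ∈ LinearMap.ker (aeval T f) := hv
        rw [h] at this
        exact this)
    exact LinearMap.ker_eq_top.1 h1
  have hdeg : f.natDegree = n := by
    have h1 : f.natDegree ≤ n := by
      have := natDegree_le_of_dvd hfd (LinearMap.charpoly_monic T).ne_zero
      rwa [LinearMap.charpoly_natDegree] at this
    by_contra hne
    obtain ⟨A, B, hAB, hA, hB, hTA, hTB⟩ := decomp_of_irreducible_lt hfirr hfm h0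
      (lt_of_le_of_ne h1 hne)
    have hA' := hinv A hTA hA
    have hB' := hinv B hTB hB
    have := hAB.disjoint
    rw [hA', hB', disjoint_self] at this
    exact top_ne_bot this
  exact (ha _).1 (scalar_of_irr_full hfirr hfm h0 hdeg hdet)

end Cfsg.Agent.Lib.Helper48
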