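import Mathlib

set_option autoImplicit false
set_option linter.unusedSectionVars false

namespace Cfsg.Agent.Lib.Helper48

open Finset

/-- the sign character of the field with two elements -/
def sgn2 (a : ZMod 2) : ℤ := if a = 0 then 1 else -1

theorem sgn2_add (a b : ZMod 2) : sgn2 (a + b) = sgn2 a * sgn2 b := by
  revert a b; decide

theorem sgn2_zero : sgn2 0 = 1 := rfl

theorem sgn2_one : sgn2 1 = -1 := rfl

theorem sgn2_of_ne_zero {a : ZMod 2} (h : a ≠ 0) : sgn2 a = -1 := by
  revert a; decide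

theorem sgn2_eq_one_iff {a : ZMod 2} : sgn2 a = 1 ↔ a = 0 := by
  revert a; decide

theorem sgn2_mul_self (a : ZMod 2) : sgn2 a * sgn2 a = 1 := by
  revert a; decide

theorem zmod2_add_self (a : ZMod 2) : a + a = 0 := by
  revert a; decide

theorem zmod2_eq_one_of_ne_zero {a : ZMod 2} (h : a ≠ 0) : a = 1 := by
  revert a; decide

variable {W : Type*} [AddCommGroup W] [Fintype W]

/-- the character sum of a function to the field with two elements -/
def charSum (q : W → ZMod 2) : ℤ := ∑ v, sgn2 (q v)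

theorem sum_sgn2_eq_zero (l : W → ZMod 2) (hadd : ∀ u v, l (u + v) = l u + l v) (v₀ : W)
    (h : l v₀ ≠ 0) : ∑ v, sgn2 (l v) = 0 := by
  have h1 : ∑ v, sgn2 (l (v + v₀)) = ∑ v, sgn2 (l v) :=
    Fintype.sum_equiv (Equiv.addRight v₀) _ _ (fun v => rfl)
  have h2 : ∑ v, sgn2 (l (v + v₀)) = - ∑ v, sgn2 (l v) := by
    rw [← Finset.sum_neg_distrib]
    apply Finset.sum_congr rfl
    intro v _
    rw [hadd, sgn2_add, sgn2_of_ne_zero h]
    ring
  omega

theorem sum_sgn2_eq_card (l : W → ZMod 2) (h : ∀ v, l v = 0) :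
    ∑ v, sgn2 (l v) = Fintype.card W := by
  simp [h, sgn2_zero]

section Polar

variable (q : W → ZMod 2) (B : W → W → ZMod 2)

theorem polar_map_zero (hq : ∀ u v, q (u + v) = q u + q v + B u v)
    (hB1 : ∀ u u' w, B (u + u') w = B u w + B u' w) : q 0 = 0 := by
  have h1 := hq 0 0
  have h2 := hB1 0 0 0
  rw [add_zero] at h1 h2
  have h3 : B 0 0 = 0 := by
    have := zmod2_add_self (B 0 0)
    rw [← h2] at this
    exact this
  rw [h3, add_zero] at h1
  have := zmod2_add_self (q 0)
  rw [← h1] at this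
  exact this

theorem charSum_sq (hq : ∀ u v, q (u + v) = q u + q v + B u v)
    (hB1 : ∀ u u' w, B (u + u') w = B u w + B u' w) (hnd : ∀ w, w ≠ 0 → ∃ u, B u w ≠ 0) :
    charSum q ^ 2 = Fintype.card W := by
  classical
  unfold charSum
  rw [sq, Finset.sum_mul_sum]
  have h1 : ∀ u : W, ∑ v, sgn2 (q u) * sgn2 (q v) = ∑ w, sgn2 (q w) * sgn2 (B u w) := by
    intro u
    rw [← Fintype.sum_equiv (Equiv.addLeft u) (fun w => sgn2 (q u) * sgn2 (q (u + w)))
      (fun v => sgn2 (q u) * sgn2 (q v)) (fun w => rfl)]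
    apply Finset.sum_congr rfl
    intro w _
    rw [hq, sgn2_add, sgn2_add, ← mul_assoc, ← mul_assoc, sgn2_mul_self, one_mul]
  rw [Finset.sum_congr rfl (fun u _ => h1 u), Finset.sum_comm]
  simp_rw [← Finset.mul_sum]
  rw [Finset.sum_eq_single (0 : W)]
  · rw [polar_map_zero q B hq hB1, sgn2_zero, one_mul]
    apply sum_sgn2_eq_card
    intro u
    have h2 := hq u 0
    rw [add_zero, polar_map_zero q B hq hB1, add_zero] at h2
    have h3 : q u + B u 0 = q u + 0 := by rw [add_zero]; exact h2.symm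
    exact add_left_cancel h3
  · intro w _ hw
    obtain ⟨u₀, hu₀⟩ := hnd w hw
    rw [sum_sgn2_eq_zero (fun u => B u w) (fun u u' => hB1 u u' w) u₀ hu₀, mul_zero]
  · intro h; exact absurd (Finset.mem_univ _) h

theorem charSum_ne_zero [Nonempty W] (hq : ∀ u v, q (u + v) = q u + q v + B u v)
    (hB1 : ∀ u u' w, B (u + u') w = B u w + B u' w) (hnd : ∀ w, w ≠ 0 → ∃ u, B u w ≠ 0) :
    charSum q ≠ 0 := by
  intro h
  have := charSum_sq q B hq hB1 hnd
  rw [h] at this
  have hpos : 0 < Fintype.card W := Fintype.card_pos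
  simp at this
  omega

theorem charSum_translate (hq : ∀ u v, q (u + v) = q u + q v + B u v) (w : W) :
    charSum (fun v => q v + B v w) = sgn2 (q w) * charSum q := by
  unfold charSum
  rw [← Fintype.sum_equiv (Equiv.addRight w) (fun v => sgn2 (q (v + w))) (fun v => sgn2 (q v))
    (fun v => rfl), Finset.mul_sum]
  apply Finset.sum_congr rfl
  intro v _
  rw [hq, sgn2_add, sgn2_add, sgn2_add]
  have := sgn2_mul_self (q w)
  linear_combination (-(sgn2 (q v) * sgn2 (B v w))) * this

end Polar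

theorem charSum_comp {W' : Type*} [AddCommGroup W'] [Fintype W'] (q : W → ZMod 2) (g : W' ≃ W) :
    charSum (fun v => q (g v)) = charSum q :=
  Fintype.sum_equiv g _ _ (fun _ => rfl)

theorem two_mul_card_zeros (q : W → ZMod 2) :
    2 * (Nat.card {v : W // q v = 0} : ℤ) = Fintype.card W + charSum q := by
  classical
  rw [Nat.card_eq_fintype_card, Fintype.card_subtype]
  unfold charSum
  have h1 : (Fintype.card W : ℤ) = ∑ _v : W, (1 : ℤ) := by simp
  rw [h1, ← Finset.sum_add_distrib, Finset.card_filter]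
  push_cast
  rw [Finset.mul_sum]
  apply Finset.sum_congr rfl
  intro v _
  by_cases h : q v = 0
  · simp [h, sgn2_zero]
  · simp [h, sgn2_of_ne_zero h]

theorem two_mul_card_ones (q : W → ZMod 2) :
    2 * (Nat.card {v : W // q v = 1} : ℤ) = Fintype.card W - charSum q := by
  classical
  rw [Nat.card_eq_fintype_card, Fintype.card_subtype]
  unfold charSum
  have h1 : (Fintype.card W : ℤ) = ∑ _v : W, (1 : ℤ) := by simp
  rw [h1, ← Finset.sum_sub_distrib, Finset.card_filter]
  push_cast
  rw [Finset.mul_sum]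
  apply Finset.sum_congr rfl
  intro v _
  by_cases h : q v = 0
  · simp [h, sgn2_zero]
  · simp [zmod2_eq_one_of_ne_zero h, sgn2_one]

end Cfsg.Agent.Lib.Helper48
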