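import Mathlib
import Cfsg.Prelude.Def_Classical
import Cfsg.Agent.Lib.Helper48.QuadF2

set_option autoImplicit false
set_option linter.unusedSectionVars false

namespace Cfsg.Agent.Lib.Helper48

open Finset

/-- the space of dimension `2m` over the field with two elements -/
abbrev V2 (m : ℕ) := Fin m ⊕ Fin m → ZMod 2

variable {m : ℕ}

theorem quadFormPlus_apply (v : V2 m) :
    Cfsg.quadFormPlus m (ZMod 2) v = ∑ i : Fin m, v (.inl i) * v (.inr i) := rfl

/-- polar form of the plus type form -/
def pol (m : ℕ) (u v : V2 m) : ZMod 2 :=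
  Cfsg.quadFormPlus m (ZMod 2) (u + v) - Cfsg.quadFormPlus m (ZMod 2) u -
    Cfsg.quadFormPlus m (ZMod 2) v

theorem pol_eq (u v : V2 m) :
    pol m u v = ∑ i : Fin m, (u (.inl i) * v (.inr i) + u (.inr i) * v (.inl i)) := by
  unfold pol
  rw [quadFormPlus_apply, quadFormPlus_apply, quadFormPlus_apply, ← Finset.sum_sub_distrib,
    ← Finset.sum_sub_distrib]
  apply Finset.sum_congr rfl
  intro i _
  simp only [Pi.add_apply]
  ring

theorem pol_add_left (u u' w : V2 m) : pol m (u + u') w = pol m u w + pol m u' w := by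
  rw [pol_eq, pol_eq, pol_eq, ← Finset.sum_add_distrib]
  apply Finset.sum_congr rfl
  intro i _
  simp only [Pi.add_apply]
  ring

theorem pol_comm (u v : V2 m) : pol m u v = pol m v u := by
  rw [pol_eq, pol_eq]
  apply Finset.sum_congr rfl
  intro i _
  ring

theorem pol_add_right (u w w' : V2 m) : pol m u (w + w') = pol m u w + pol m u w' := by
  rw [pol_comm, pol_add_left, pol_comm w, pol_comm w']

theorem pol_self (u : V2 m) : pol m u u = 0 := by
  rw [pol_eq]
  apply Finset.sum_eq_zero
  intro i _
  rw [mul_comm (u (.inr i))]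
  exact zmod2_add_self _

theorem pol_zero_right (u : V2 m) : pol m u 0 = 0 := by
  rw [pol_eq]; simp

theorem pol_single_inr (w : V2 m) (i : Fin m) :
    pol m (Pi.single (Sum.inr i) 1) w = w (.inl i) := by
  classical
  rw [pol_eq, Finset.sum_eq_single i]
  · simp
  · intro j _ hj
    simp [Pi.single_apply, hj]
  · intro h; exact absurd (Finset.mem_univ _) h

theorem pol_single_inl (w : V2 m) (i : Fin m) :
    pol m (Pi.single (Sum.inl i) 1) w = w (.inr i) := by
  classical
  rw [pol_eq, Finset.sum_eq_single i]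
  · simp
  · intro j _ hj
    simp [Pi.single_apply, hj]
  · intro h; exact absurd (Finset.mem_univ _) h

theorem pol_nondeg (w : V2 m) (hw : w ≠ 0) : ∃ u, pol m u w ≠ 0 := by
  obtain ⟨j, hj⟩ : ∃ j, w j ≠ 0 := by
    by_contra hcon
    push Not at hcon
    exact hw (funext hcon)
  rcases j with i | i
  · exact ⟨Pi.single (Sum.inr i) 1, by rw [pol_single_inr]; exact hj⟩
  · exact ⟨Pi.single (Sum.inl i) 1, by rw [pol_single_inl]; exact hj⟩

/-- `q` polarizes to `pol` -/
def IsPol (q : V2 m → ZMod 2) : Prop := ∀ u v, q (u + v) = q u + q v + pol m u v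

theorem isPol_plus : IsPol (Cfsg.quadFormPlus m (ZMod 2)) := by
  intro u v
  unfold pol
  ring

theorem IsPol.translate {q : V2 m → ZMod 2} (hq : IsPol q) (w : V2 m) :
    IsPol (fun v => q v + pol m v w) := by
  intro u v
  simp only
  rw [hq, pol_add_left]
  ring

theorem card_V2 : Fintype.card (V2 m) = 2 ^ (2 * m) := by
  rw [Fintype.card_fun, ZMod.card, Fintype.card_sum, Fintype.card_fin]
  congr 1; ring

theorem IsPol.charSum_sq {q : V2 m → ZMod 2} (hq : IsPol q) :
    charSum q ^ 2 = ((2 : ℤ) ^ m) ^ 2 := by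
  rw [Cfsg.Agent.Lib.Helper48.charSum_sq q (pol m) hq pol_add_left pol_nondeg, card_V2]
  push_cast
  ring

theorem IsPol.charSum_ne_zero {q : V2 m → ZMod 2} (hq : IsPol q) : charSum q ≠ 0 :=
  Cfsg.Agent.Lib.Helper48.charSum_ne_zero q (pol m) hq pol_add_left pol_nondeg

theorem IsPol.charSum_translate {q : V2 m → ZMod 2} (hq : IsPol q) (w : V2 m) :
    charSum (fun v => q v + pol m v w) = sgn2 (q w) * charSum q :=
  Cfsg.Agent.Lib.Helper48.charSum_translate q (pol m) hq w

theorem charSum_plus : charSum (Cfsg.quadFormPlus m (ZMod 2)) = 2 ^ m := by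
  classical
  unfold charSum
  rw [Fintype.sum_equiv (Equiv.sumArrowEquivProdArrow (Fin m) (Fin m) (ZMod 2))
    (fun v => sgn2 (Cfsg.quadFormPlus m (ZMod 2) v))
    (fun xy : (Fin m → ZMod 2) × (Fin m → ZMod 2) => sgn2 (∑ i, xy.1 i * xy.2 i))
    (fun v => rfl), Fintype.sum_prod_type, Finset.sum_eq_single (0 : Fin m → ZMod 2)]
  · simp [sgn2_zero]
  · intro x _ hx
    obtain ⟨i, hi⟩ : ∃ i, x i ≠ 0 := by
      by_contra hcon
      push Not at hcon
      exact hx (funext hcon)
    apply sum_sgn2_eq_zero (fun y : Fin m → ZMod 2 => ∑ i, x i * y i) _ (Pi.single i 1)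
    · rw [Finset.sum_eq_single i]
      · simpa using hi
      · intro j _ hj
        simp [Pi.single_apply, hj]
      · intro h; exact absurd (Finset.mem_univ _) h
    · intro u v
      rw [← Finset.sum_add_distrib]
      apply Finset.sum_congr rfl
      intro j _
      simp only [Pi.add_apply]
      ring
  · intro h; exact absurd (Finset.mem_univ _) h

/-- `pol · w` as a linear functional -/
def polLin (w : V2 m) : V2 m →ₗ[ZMod 2] ZMod 2 :=
  AddMonoidHom.toZModLinearMap 2 (AddMonoidHom.mk' (fun v => pol m v w)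
    (fun u u' => pol_add_left u u' w))

theorem polLin_apply (w v : V2 m) : polLin w v = pol m v w := rfl

/-- the symplectic transvection -/
def transv (w : V2 m) : V2 m →ₗ[ZMod 2] V2 m := LinearMap.id + (polLin w).smulRight w

theorem transv_apply (w v : V2 m) : transv w v = v + pol m v w • w := rfl

theorem transv_involutive (w : V2 m) : Function.Involutive (transv w) := by
  intro v
  rw [transv_apply, transv_apply, pol_add_left]
  have h1 : pol m (pol m v w • w) w = 0 := by
    rcases (by revert v; intro v; generalize pol m v w = c; revert c; decide :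
      pol m v w = 0 ∨ pol m v w = 1) with h | h
    · rw [h, zero_smul, pol_comm, pol_zero_right]
    · rw [h, one_smul, pol_self]
  rw [h1, add_zero, add_assoc, ← add_smul, zmod2_add_self, zero_smul, add_zero]

/-- the symplectic transvection as a linear equivalence -/
def transvEquiv (w : V2 m) : V2 m ≃ₗ[ZMod 2] V2 m :=
  LinearEquiv.ofInvolutive (transv w) (transv_involutive w)

theorem transvEquiv_apply (w v : V2 m) : transvEquiv w v = v + pol m v w • w := rfl

theorem IsPol.map_transv {q : V2 m → ZMod 2} (hq : IsPol q) (w : V2 m) (hw : q w = 0)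
    (v : V2 m) : q (transvEquiv w v) = q v + pol m v w := by
  rw [transvEquiv_apply]
  rcases (by generalize pol m v w = c; revert c; decide :
      pol m v w = 0 ∨ pol m v w = 1) with h | h
  · rw [h, zero_smul, add_zero, add_zero]
  · rw [h, one_smul, hq, hw, h, add_zero]

/-- the translate of `q` by `w` is equivalent to `q` iff `q w = 0` -/
theorem IsPol.translate_equiv_iff {q : V2 m → ZMod 2} (hq : IsPol q) (w : V2 m) :
    (∃ g : V2 m ≃ₗ[ZMod 2] V2 m, ∀ v, q v + pol m v w = q (g v)) ↔ q w = 0 := by
  constructor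
  · rintro ⟨g, hg⟩
    have h1 : charSum (fun v => q v + pol m v w) = charSum q := by
      rw [← charSum_comp q g.toEquiv]
      congr 1
      funext v
      exact hg v
    rw [hq.charSum_translate] at h1
    have h2 : (sgn2 (q w) - 1) * charSum q = 0 := by linear_combination h1
    rcases mul_eq_zero.1 h2 with h | h
    · exact sgn2_eq_one_iff.1 (by linarith)
    · exact absurd h hq.charSum_ne_zero
  · intro hw
    exact ⟨transvEquiv w, fun v => (hq.map_transv w hw v).symm⟩

end Cfsg.Agent.Lib.Helper48
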