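import Mathlib
import Cfsg.Prelude.Def_Classical
import Cfsg.Agent.Lib.Helper48.QuadF2Plus

set_option autoImplicit false
set_option linter.unusedSectionVars false

namespace Cfsg.Agent.Lib.Helper48

open Finset

variable {m : ℕ}

/-- the translate of the plus type form by `w` -/
def qw (w : V2 m) : V2 m → ZMod 2 := fun v => Cfsg.quadFormPlus m (ZMod 2) v + pol m v w

theorem isPol_qw (w : V2 m) : IsPol (qw w) := isPol_plus.translate w

theorem qw_injective : Function.Injective (qw : V2 m → V2 m → ZMod 2) := by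
  intro w w' h
  by_contra hne
  obtain ⟨u, hu⟩ := pol_nondeg (w - w') (sub_ne_zero.2 hne)
  apply hu
  have h1 : pol m u w = pol m u w' := by
    have := congrFun h u
    exact add_left_cancel this
  have h2 : pol m u w = pol m u (w - w') + pol m u w' := by
    rw [← pol_add_right, sub_add_cancel]
  rw [h1] at h2
  have h3 : 0 + pol m u w' = pol m u (w - w') + pol m u w' := by rw [zero_add]; exact h2
  exact (add_right_cancel h3).symm

theorem exists_qw_eq {q : V2 m → ZMod 2} (hq : IsPol q) : ∃ w, qw w = q := by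
  classical
  let L : V2 m →ₗ[ZMod 2] ZMod 2 := AddMonoidHom.toZModLinearMap 2
    (AddMonoidHom.mk' (fun v => q v + Cfsg.quadFormPlus m (ZMod 2) v) (by
      intro u v
      rw [hq, isPol_plus]
      have := zmod2_add_self (pol m u v)
      linear_combination this))
  have hL : ∀ v, L v = q v + Cfsg.quadFormPlus m (ZMod 2) v := fun v => rfl
  refine ⟨fun j => Sum.elim (fun i => L (Pi.single (Sum.inr i) 1))
    (fun i => L (Pi.single (Sum.inl i) 1)) j, ?_⟩
  funext v
  unfold qw
  have h1 : pol m v (fun j => Sum.elim (fun i => L (Pi.single (Sum.inr i) 1))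
    (fun i => L (Pi.single (Sum.inl i) 1)) j) = L v := by
    rw [pol_eq, LinearMap.pi_apply_eq_sum_univ L v, Fintype.sum_sum_type,
      ← Finset.sum_add_distrib]
    apply Finset.sum_congr rfl
    intro i _
    simp only [Sum.elim_inl, Sum.elim_inr, smul_eq_mul]
    congr 2
    · congr 1; funext j; simp [Pi.single_apply, eq_comm]
    · congr 1; funext j; simp [Pi.single_apply, eq_comm]
  rw [h1, hL]
  have := zmod2_add_self (Cfsg.quadFormPlus m (ZMod 2) v)
  linear_combination this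

theorem charSum_qw (w : V2 m) :
    charSum (qw w) = sgn2 (Cfsg.quadFormPlus m (ZMod 2) w) * 2 ^ m := by
  unfold qw
  rw [isPol_plus.charSum_translate, charSum_plus]

section Minus

variable {k : ℕ}

/-- index map from the minus type index set -/
def sig0 (k : ℕ) : (Fin k ⊕ Fin k) ⊕ Fin 2 → Fin (k + 1) ⊕ Fin (k + 1) :=
  Sum.elim (Sum.map Fin.castSucc Fin.castSucc)
    (fun t : Fin 2 => if t = 0 then Sum.inl (Fin.last k) else Sum.inr (Fin.last k))

theorem sig0_surjective : Function.Surjective (sig0 k) := by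
  intro j
  rcases j with i | i
  · induction i using Fin.lastCases with
    | last => exact ⟨Sum.inr 0, rfl⟩
    | cast i => exact ⟨Sum.inl (Sum.inl i), rfl⟩
  · induction i using Fin.lastCases with
    | last => exact ⟨Sum.inr 1, rfl⟩
    | cast i => exact ⟨Sum.inl (Sum.inr i), rfl⟩

/-- reindexing linear equivalence -/
noncomputable def reidx (k : ℕ) :
    V2 (k + 1) ≃ₗ[ZMod 2] ((Fin k ⊕ Fin k) ⊕ Fin 2 → ZMod 2) :=
  LinearMap.linearEquivOfInjective (LinearMap.funLeft (ZMod 2) (ZMod 2) (sig0 k))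
    (LinearMap.funLeft_injective_of_surjective _ _ _ sig0_surjective)
    (by
      rw [Module.finrank_pi, Module.finrank_pi]
      simp only [Fintype.card_sum, Fintype.card_fin]
      ring)

theorem reidx_apply (v : V2 (k + 1)) (j : (Fin k ⊕ Fin k) ⊕ Fin 2) :
    reidx k v j = v (sig0 k j) := rfl

/-- the vector `e + f` of the last hyperbolic pair -/
def w1 (k : ℕ) : V2 (k + 1) :=
  Pi.single (Sum.inl (Fin.last k)) 1 + Pi.single (Sum.inr (Fin.last k)) 1

theorem pol_w1 (v : V2 (k + 1)) :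
    pol (k + 1) v (w1 k) = v (Sum.inr (Fin.last k)) + v (Sum.inl (Fin.last k)) := by
  rw [pol_comm, w1, pol_add_left, pol_single_inl, pol_single_inr]

theorem quadFormPlus_w1 : Cfsg.quadFormPlus (k + 1) (ZMod 2) (w1 k) = 1 := by
  classical
  rw [quadFormPlus_apply, Finset.sum_eq_single (Fin.last k)]
  · simp [w1]
  · intro j _ hj
    simp [w1, Pi.single_apply, hj]
  · intro h; exact absurd (Finset.mem_univ _) h

theorem quadFormMinus_reidx (v : V2 (k + 1)) :
    Cfsg.quadFormMinus k (ZMod 2) 1 1 (reidx k v) = qw (w1 k) v := by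
  unfold qw Cfsg.quadFormMinus
  rw [pol_w1, quadFormPlus_apply, Fin.sum_univ_castSucc]
  simp only [reidx_apply]
  have e1 : ∀ i : Fin k, sig0 k (Sum.inl (Sum.inl i)) = Sum.inl i.castSucc := fun i => rfl
  have e2 : ∀ i : Fin k, sig0 k (Sum.inl (Sum.inr i)) = Sum.inr i.castSucc := fun i => rfl
  have e3 : sig0 k (Sum.inr 0) = Sum.inl (Fin.last k) := rfl
  have e4 : sig0 k (Sum.inr 1) = Sum.inr (Fin.last k) := rfl
  simp only [e1, e2, e3, e4]
  generalize v (Sum.inl (Fin.last k)) = x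
  generalize v (Sum.inr (Fin.last k)) = y
  generalize (∑ i : Fin k, v (Sum.inl i.castSucc) * v (Sum.inr i.castSucc)) = s
  revert x y s
  decide

theorem minus_iff (w : V2 (k + 1)) :
    (∃ g : V2 (k + 1) ≃ₗ[ZMod 2] ((Fin k ⊕ Fin k) ⊕ Fin 2 → ZMod 2),
      ∀ v, qw w v = Cfsg.quadFormMinus k (ZMod 2) 1 1 (g v)) ↔
      Cfsg.quadFormPlus (k + 1) (ZMod 2) w = 1 := by
  constructor
  · rintro ⟨g, hg⟩
    have h1 : charSum (qw w) = charSum (qw (w1 k)) := by
      rw [← charSum_comp (qw (w1 k)) (g.trans (reidx k).symm).toEquiv]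
      congr 1
      funext v
      rw [hg, ← quadFormMinus_reidx]
      simp
    rw [charSum_qw, charSum_qw, quadFormPlus_w1, sgn2_one] at h1
    by_contra hne
    have h0 : Cfsg.quadFormPlus (k + 1) (ZMod 2) w = 0 := by
      generalize Cfsg.quadFormPlus (k + 1) (ZMod 2) w = c at hne
      revert c; decide
    rw [h0, sgn2_zero] at h1
    have hpos : (0 : ℤ) < 2 ^ (k + 1) := by positivity
    linarith
  · intro hw
    have h0 : qw (w1 k) (w + w1 k) = 0 := by
      unfold qw
      rw [isPol_plus, hw, quadFormPlus_w1, pol_add_left, pol_self]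
      have := zmod2_add_self (pol (k + 1) w (w1 k))
      have h2 : (1 : ZMod 2) + 1 = 0 := by decide
      linear_combination this + h2
    obtain ⟨g, hg⟩ := ((isPol_qw (w1 k)).translate_equiv_iff (w + w1 k)).2 h0
    refine ⟨g.trans (reidx k), fun v => ?_⟩
    rw [LinearEquiv.trans_apply, quadFormMinus_reidx, ← hg]
    unfold qw
    rw [pol_add_right]
    have := zmod2_add_self (pol (k + 1) v (w1 k))
    linear_combination -this

end Minus

theorem plus_iff (w : V2 m) :
    (∃ g : V2 m ≃ₗ[ZMod 2] V2 m, ∀ v, qw w v = Cfsg.quadFormPlus m (ZMod 2) (g v)) ↔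
      Cfsg.quadFormPlus m (ZMod 2) w = 0 :=
  isPol_plus.translate_equiv_iff w

theorem card_isPol : Nat.card {q : V2 m → ZMod 2 // IsPol q} = 2 ^ (2 * m) := by
  rw [← card_V2 (m := m), ← Nat.card_eq_fintype_card]
  symm
  apply Nat.card_eq_of_bijective (fun w => (⟨qw w, isPol_qw w⟩ : {q : V2 m → ZMod 2 // IsPol q}))
  constructor
  · intro w w' h
    exact qw_injective (congrArg Subtype.val h)
  · rintro ⟨q, hq⟩
    obtain ⟨w, hw⟩ := exists_qw_eq hq
    exact ⟨w, Subtype.ext hw⟩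

theorem card_isPol_and (P : (V2 m → ZMod 2) → Prop) (c : ZMod 2)
    (hP : ∀ w, P (qw w) ↔ Cfsg.quadFormPlus m (ZMod 2) w = c) :
    Nat.card {q : V2 m → ZMod 2 // IsPol q ∧ P q} =
      Nat.card {w : V2 m // Cfsg.quadFormPlus m (ZMod 2) w = c} := by
  symm
  apply Nat.card_eq_of_bijective
    (fun w : {w : V2 m // Cfsg.quadFormPlus m (ZMod 2) w = c} =>
      (⟨qw w.1, isPol_qw w.1, (hP w.1).2 w.2⟩ : {q : V2 m → ZMod 2 // IsPol q ∧ P q}))
  constructor
  · intro w w' h
    exact Subtype.ext (qw_injective (congrArg Subtype.val h))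
  · rintro ⟨q, hq, hPq⟩
    obtain ⟨w, rfl⟩ := exists_qw_eq hq
    exact ⟨⟨w, (hP w).1 hPq⟩, rfl⟩

theorem card_plus_zeros (k : ℕ) :
    Nat.card {w : V2 (k + 1) // Cfsg.quadFormPlus (k + 1) (ZMod 2) w = 0} =
      2 ^ (2 * (k + 1) - 1) + 2 ^ (k + 1 - 1) := by
  have h := two_mul_card_zeros (Cfsg.quadFormPlus (k + 1) (ZMod 2))
  rw [charSum_plus, card_V2] at h
  have e1 : 2 * (k + 1) - 1 = 2 * k + 1 := by omega
  have e2 : k + 1 - 1 = k := by omega
  rw [e1, e2]
  have h2 : (2 : ℤ) * (Nat.card {w : V2 (k + 1) // Cfsg.quadFormPlus (k + 1) (ZMod 2) w = 0} : ℤ) =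
      2 * ((2 ^ (2 * k + 1) + 2 ^ k : ℕ) : ℤ) := by
    rw [h]; push_cast; ring
  exact_mod_cast mul_left_cancel₀ (two_ne_zero) h2

theorem card_plus_ones (k : ℕ) :
    Nat.card {w : V2 (k + 1) // Cfsg.quadFormPlus (k + 1) (ZMod 2) w = 1} =
      2 ^ (2 * (k + 1) - 1) - 2 ^ (k + 1 - 1) := by
  have h := two_mul_card_ones (Cfsg.quadFormPlus (k + 1) (ZMod 2))
  rw [charSum_plus, card_V2] at h
  have e1 : 2 * (k + 1) - 1 = 2 * k + 1 := by omega
  have e2 : k + 1 - 1 = k := by omega
  rw [e1, e2]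
  have hle : 2 ^ k ≤ 2 ^ (2 * k + 1) := Nat.pow_le_pow_right (by norm_num) (by omega)
  have h2 : (2 : ℤ) * (Nat.card {w : V2 (k + 1) // Cfsg.quadFormPlus (k + 1) (ZMod 2) w = 1} : ℤ) =
      2 * ((2 ^ (2 * k + 1) - 2 ^ k : ℕ) : ℤ) := by
    rw [h, Nat.cast_sub hle]; push_cast; ring
  exact_mod_cast mul_left_cancel₀ (two_ne_zero) h2

end Cfsg.Agent.Lib.Helper48
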