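import Mathlib

set_option autoImplicit false
set_option linter.unusedSectionVars false

namespace Cfsg.Agent.Lib.Helper48

theorem prime_pow_dvd_lcm {r e a b : ℕ} (hr : r.Prime) (h : r ^ e ∣ Nat.lcm a b) :
    r ^ e ∣ a ∨ r ^ e ∣ b := by
  rcases Nat.eq_zero_or_pos a with rfl | ha
  · exact Or.inl (dvd_zero _)
  rcases Nat.eq_zero_or_pos b with rfl | hb
  · exact Or.inr (dvd_zero _)
  rw [hr.pow_dvd_iff_le_factorization (Nat.lcm_ne_zero ha.ne' hb.ne'),
    Nat.factorization_lcm ha.ne' hb.ne', Finsupp.sup_apply, le_sup_iff] at h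
  rcases h with h | h
  · exact Or.inl ((hr.pow_dvd_iff_le_factorization ha.ne').2 h)
  · exact Or.inr ((hr.pow_dvd_iff_le_factorization hb.ne').2 h)

theorem prime_pow_dvd_finset_lcm {ι : Type*} {r e : ℕ} (hr : r.Prime) (he : e ≠ 0)
    (s : Finset ι) (f : ι → ℕ) (h : r ^ e ∣ s.lcm f) : ∃ i ∈ s, r ^ e ∣ f i := by
  classical
  induction s using Finset.induction_on with
  | empty =>
    exfalso
    rw [Finset.lcm_empty, Nat.dvd_one] at h
    have := Nat.one_lt_pow he hr.one_lt
    omega
  | insert a s ha ih =>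
    rw [Finset.lcm_insert] at h
    rcases prime_pow_dvd_lcm hr h with h | h
    · exact ⟨a, Finset.mem_insert_self a s, h⟩
    · obtain ⟨i, hi, h⟩ := ih h
      exact ⟨i, Finset.mem_insert_of_mem hi, h⟩

/-- extend a tuple by ones -/
def extendPi (L : Type*) [Group L] (k₀ k : ℕ) : (Fin k₀ → L) →* (Fin k → L) where
  toFun g := fun i => if h : i.val < k₀ then g ⟨i.val, h⟩ else 1
  map_one' := by
    funext i
    simp
  map_mul' a b := by
    funext i
    by_cases h : i.val < k₀ <;> simp [h]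

theorem extendPi_injective (L : Type*) [Group L] {k₀ k : ℕ} (hk : k₀ ≤ k) :
    Function.Injective (extendPi L k₀ k) := by
  intro a b h
  funext j
  have := congrFun h ⟨j.val, lt_of_lt_of_le j.isLt hk⟩
  simpa [extendPi] using this

/-- If `k₀` elements of a finite group `L` have orders that are divisible by every prime power
element order, then the set of element orders of `L^k` is the same for all `k ≥ k₀`. -/
theorem range_orderOf_pi_eq {L : Type*} [Group L] [Finite L] (k₀ k : ℕ) (hk : k₀ ≤ k)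
    (M : Fin k₀ → L)
    (hcover : ∀ (x : L) (r e : ℕ), r.Prime → orderOf x = r ^ e → ∃ j, r ^ e ∣ orderOf (M j)) :
    Set.range (orderOf : (Fin k → L) → ℕ) = Set.range (orderOf : (Fin k₀ → L) → ℕ) := by
  apply Set.Subset.antisymm
  · rintro _ ⟨f, rfl⟩
    set m := orderOf f with hm
    have hm0 : m ≠ 0 := (orderOf_pos f).ne'
    refine ⟨fun j => (M j) ^ (orderOf (M j) / Nat.gcd m (orderOf (M j))), ?_⟩
    have hord : ∀ j, orderOf ((M j) ^ (orderOf (M j) / Nat.gcd m (orderOf (M j)))) =
        Nat.gcd m (orderOf (M j)) := fun j =>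
      orderOf_pow_orderOf_div (orderOf_pos (M j)).ne' (Nat.gcd_dvd_right _ _)
    rw [Pi.orderOf]
    simp only [hord]
    apply Nat.dvd_antisymm
    · exact Finset.lcm_dvd fun j _ => Nat.gcd_dvd_left _ _
    · rw [Nat.dvd_iff_prime_pow_dvd_dvd]
      intro r e hr hre
      rcases Nat.eq_zero_or_pos e with rfl | he
      · simp
      rw [hm, Pi.orderOf] at hre
      obtain ⟨i, -, hi⟩ := prime_pow_dvd_finset_lcm hr he.ne' _ _ hre
      have h1 : orderOf ((f i) ^ (orderOf (f i) / r ^ e)) = r ^ e :=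
        orderOf_pow_orderOf_div (orderOf_pos (f i)).ne' hi
      obtain ⟨j, hj⟩ := hcover _ r e hr h1
      have h2 : r ^ e ∣ m := by
        rw [hm, Pi.orderOf]
        exact hi.trans (Finset.dvd_lcm (Finset.mem_univ i))
      exact (Nat.dvd_gcd h2 hj).trans (Finset.dvd_lcm (Finset.mem_univ j))
  · rintro _ ⟨g, rfl⟩
    exact ⟨extendPi L k₀ k g, orderOf_injective _ (extendPi_injective L hk) g⟩

end Cfsg.Agent.Lib.Helper48
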