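import Mathlib

set_option autoImplicit false
set_option linter.unusedSectionVars false

namespace Cfsg.Agent.Lib.Helper48

open Module LinearMap

variable {K V : Type*} [Field K] [AddCommGroup V] [Module K V] [FiniteDimensional K V]

theorem range_le_ker_of_sq_zero (N : End K V) (hsq : N * N = 0) : range N ≤ ker N := by
  rintro _ ⟨x, rfl⟩
  rw [LinearMap.mem_ker, ← Module.End.mul_apply, hsq]
  rfl

/-- adapted basis of a square zero endomorphism -/
theorem exists_basis_sq_zero (N : End K V) (hsq : N * N = 0) (r s : ℕ)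
    (hr : finrank K (range N) = r) (hs : finrank K V = 2 * r + s) :
    ∃ b : Basis (Fin r ⊕ (Fin r ⊕ Fin s)) K V,
      (∀ i, N (b (.inl i)) = b (.inr (.inl i))) ∧ (∀ i, N (b (.inr (.inl i))) = 0) ∧
      ∀ j, N (b (.inr (.inr j))) = 0 := by
  classical
  have hle := range_le_ker_of_sq_zero N hsq
  have hrk := LinearMap.finrank_range_add_finrank_ker N
  obtain ⟨C, hC⟩ := Submodule.exists_isCompl (ker N)
  have hCdim : finrank K C = r := by
    have := Submodule.finrank_add_eq_of_isCompl hC
    omega
  obtain ⟨E, hE⟩ := Submodule.exists_isCompl (range N)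
  have hD1 : Disjoint (range N) (E ⊓ ker N) := hE.disjoint.mono_right inf_le_left
  have hD2 : range N ⊔ E ⊓ ker N = ker N := by
    rw [← sup_inf_assoc_of_le E hle, hE.sup_eq_top, top_inf_eq]
  have hDdim : finrank K (E ⊓ ker N : Submodule K V) = s := by
    have h1 := Submodule.finrank_sup_add_finrank_inf_eq (range N) (E ⊓ ker N)
    rw [hD2, hD1.eq_bot, finrank_bot] at h1
    omega
  generalize E ⊓ ker N = D at hD1 hD2 hDdim
  have hDker : D ≤ ker N := by rw [← hD2]; exact le_sup_right
  let bC : Basis (Fin r) K C := finBasisOfFinrankEq K C hCdim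
  let bD : Basis (Fin s) K D := finBasisOfFinrankEq K D hDdim
  let v : Fin r ⊕ (Fin r ⊕ Fin s) → V :=
    Sum.elim (fun i => (bC i : V)) (Sum.elim (fun i => N (bC i)) (fun j => (bD j : V)))
  have hNN : ∀ x, N (N x) = 0 := by
    intro x
    rw [← Module.End.mul_apply, hsq]; rfl
  have hli : LinearIndependent K v := by
    rw [Fintype.linearIndependent_iff]
    intro g hg
    rw [Fintype.sum_sum_type, Fintype.sum_sum_type] at hg
    simp only [v, Sum.elim_inl, Sum.elim_inr] at hg
    have e1 : ∑ i, g (.inl i) • (bC i : V) = ((∑ i, g (.inl i) • bC i : C) : V) := by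
      simp
    have e2 : ∑ i, g (.inr (.inl i)) • N (bC i : V) =
        N ((∑ i, g (.inr (.inl i)) • bC i : C) : V) := by
      simp
    have e3 : ∑ j, g (.inr (.inr j)) • (bD j : V) = ((∑ j, g (.inr (.inr j)) • bD j : D) : V) := by
      simp
    rw [e1, e2, e3] at hg
    have hc : ∀ c : C, N (c : V) = 0 → c = 0 := by
      intro c hc
      exact Subtype.ext (Submodule.disjoint_def.1 hC.disjoint _ hc c.2)
    have h1 : (∑ i, g (.inl i) • bC i : C) = 0 := by
      apply hc
      have := congrArg N hg
      rw [map_add, map_add, hNN, map_zero, zero_add,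
        LinearMap.mem_ker.1 (hDker (∑ j, g (.inr (.inr j)) • bD j : D).2), add_zero] at this
      exact this
    rw [h1, Submodule.coe_zero, zero_add] at hg
    have h2 : N ((∑ i, g (.inr (.inl i)) • bC i : C) : V) = 0 := by
      apply Submodule.disjoint_def.1 hD1 _ ⟨_, rfl⟩
      rw [eq_neg_of_add_eq_zero_left hg]
      exact D.neg_mem (Subtype.mem _)
    have h3 := hc _ h2
    rw [h2, zero_add] at hg
    have h4 : (∑ j, g (.inr (.inr j)) • bD j : D) = 0 := Subtype.ext hg
    rintro (i | i | j)
    · exact Fintype.linearIndependent_iff.1 bC.linearIndependent _ h1 i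
    · exact Fintype.linearIndependent_iff.1 bC.linearIndependent _ h3 i
    · exact Fintype.linearIndependent_iff.1 bD.linearIndependent _ h4 j
  have hcard : Fintype.card (Fin r ⊕ (Fin r ⊕ Fin s)) = finrank K V := by
    simp only [Fintype.card_sum, Fintype.card_fin]
    omega
  have hspan := hli.span_eq_top_of_card_eq_finrank' hcard
  refine ⟨Basis.mk hli hspan.ge, ?_, ?_, ?_⟩
  · intro i
    simp only [Basis.mk_apply]
    rfl
  · intro i
    simp only [Basis.mk_apply]
    exact hNN _
  · intro j
    simp only [Basis.mk_apply]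
    exact LinearMap.mem_ker.1 (hDker (bD j).2)

theorem two_mul_rank_le_of_sq_zero (N : End K V) (hsq : N * N = 0) :
    2 * finrank K (range N) ≤ finrank K V := by
  have h1 := Submodule.finrank_mono (range_le_ker_of_sq_zero N hsq)
  have h2 := LinearMap.finrank_range_add_finrank_ker N
  omega

/-- square zero endomorphisms of the same rank are conjugate -/
theorem exists_equiv_sq_zero (N N' : End K V) (hsq : N * N = 0) (hsq' : N' * N' = 0)
    (hrank : finrank K (range N) = finrank K (range N')) :
    ∃ g : V ≃ₗ[K] V, ∀ x, g (N x) = N' (g x) := by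
  have h2 := two_mul_rank_le_of_sq_zero N hsq
  obtain ⟨s, hs⟩ := Nat.exists_eq_add_of_le h2
  obtain ⟨b, hb1, hb2, hb3⟩ := exists_basis_sq_zero N hsq _ s rfl hs
  obtain ⟨b', hb1', hb2', hb3'⟩ := exists_basis_sq_zero N' hsq' _ s hrank.symm hs
  refine ⟨b.equiv b' (Equiv.refl _), ?_⟩
  have h : ((b.equiv b' (Equiv.refl _) : V ≃ₗ[K] V) : V →ₗ[K] V) ∘ₗ N =
      N' ∘ₗ ((b.equiv b' (Equiv.refl _) : V ≃ₗ[K] V) : V →ₗ[K] V) := by
    apply b.ext
    rintro (i | i | j)
    · simp [hb1, hb1']
    · simp [hb2, hb2']
    · simp [hb3, hb3']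
  intro x
  exact congrArg (fun f : V →ₗ[K] V => f x) h

/-- the centraliser of a nonzero square zero endomorphism contains elements of any square
determinant -/
theorem exists_commute_det_sq_zero (N : End K V) (hsq : N * N = 0) (hN : N ≠ 0) (μ : K) :
    ∃ h : End K V, LinearMap.det h = μ * μ ∧ h * N = N * h := by
  classical
  have h2 := two_mul_rank_le_of_sq_zero N hsq
  obtain ⟨s, hs⟩ := Nat.exists_eq_add_of_le h2
  obtain ⟨b, hb1, hb2, hb3⟩ := exists_basis_sq_zero N hsq _ s rfl hs
  have hpos : 0 < finrank K (range N) := by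
    rw [Nat.pos_iff_ne_zero]
    intro h0
    rw [Submodule.finrank_eq_zero, LinearMap.range_eq_bot] at h0
    exact hN h0
  let i₀ : Fin (finrank K (range N)) := ⟨0, hpos⟩
  let w : Fin (finrank K (range N)) ⊕ (Fin (finrank K (range N)) ⊕ Fin s) → K :=
    Sum.elim (fun i => if i = i₀ then μ else 1)
      (Sum.elim (fun i => if i = i₀ then μ else 1) (fun _ => 1))
  let h : End K V := Matrix.toLin b b (Matrix.diagonal w)
  have hh : ∀ p, h (b p) = w p • b p := by
    intro p
    simp only [h, Matrix.toLin_self, Matrix.diagonal_apply]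
    rw [Finset.sum_eq_single p]
    · simp
    · intro q _ hq
      simp [hq]
    · intro hp
      exact absurd (Finset.mem_univ p) hp
  refine ⟨h, ?_, ?_⟩
  · simp only [h, LinearMap.det_toLin, Matrix.det_diagonal, Fintype.prod_sum_type, w,
      Sum.elim_inl, Sum.elim_inr, Finset.prod_ite_eq', Finset.mem_univ, if_true,
      Finset.prod_const_one, mul_one]
  · apply b.ext
    rintro (i | i | j)
    · simp only [Module.End.mul_apply, hb1, hh, map_smul]
      rfl
    · simp only [Module.End.mul_apply, hb2, hh, map_smul, map_zero, smul_zero]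
    · simp only [Module.End.mul_apply, hb3, hh, map_smul, map_zero, smul_zero]

/-- over a field in which every element is a square, square zero endomorphisms of the same rank
are conjugate under an element of determinant one -/
theorem exists_det_one_conj_sq_zero (hK : ∀ x : K, IsSquare x) (N N' : End K V)
    (hsq : N * N = 0) (hsq' : N' * N' = 0) (hN : N ≠ 0)
    (hrank : finrank K (range N) = finrank K (range N')) :
    ∃ h : End K V, LinearMap.det h = 1 ∧ h * N = N' * h := by
  obtain ⟨g, hg⟩ := exists_equiv_sq_zero N N' hsq hsq' hrank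
  obtain ⟨μ, hμ⟩ := hK (LinearMap.det (g : V →ₗ[K] V))⁻¹
  obtain ⟨c, hcd, hc⟩ := exists_commute_det_sq_zero N hsq hN μ
  refine ⟨(g : V →ₗ[K] V) * c, ?_, ?_⟩
  · rw [map_mul, hcd, ← hμ, mul_inv_cancel₀]
    exact (LinearEquiv.isUnit_det' g).ne_zero
  · rw [mul_assoc, hc, ← mul_assoc, ← mul_assoc]
    congr 1
    apply LinearMap.ext
    intro x
    exact hg x

end Cfsg.Agent.Lib.Helper48
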