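import Mathlib

set_option autoImplicit false

namespace Cfsg.Agent.Lib.Helper48

/-- a Sylow 2-subgroup of `S_{2^j}` in which any two points are swapped by some element -/
theorem exists_sylow_swap (j : ℕ) : ∃ T : Sylow 2 (Equiv.Perm (Fin (2 ^ j))),
    ∀ x y : Fin (2 ^ j), ∃ t ∈ T, t x = y ∧ t y = x := by
  classical
  let G := Multiplicative (Fin j → ZMod 2)
  have hcard : Fintype.card G = 2 ^ j := by
    simp [G, ZMod.card]
  let ε : G ≃ Fin (2 ^ j) := Fintype.equivFinOfCardEq hcard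
  let ρ : G →* Equiv.Perm (Fin (2 ^ j)) :=
    (ε.permCongrHom).toMonoidHom.comp (MulAction.toPermHom G G)
  have hG : IsPGroup 2 G := IsPGroup.of_card (n := j) (by rw [Nat.card_eq_fintype_card, hcard])
  have hE : IsPGroup 2 ρ.range := hG.of_surjective ρ.rangeRestrict ρ.rangeRestrict_surjective
  obtain ⟨T, hT⟩ := hE.exists_le_sylow
  have hsq : ∀ g : G, g * g = 1 := by
    intro g
    apply Multiplicative.toAdd.injective
    funext i
    exact CharTwo.add_self_eq_zero _
  refine ⟨T, fun x y => ⟨ρ (ε.symm y * (ε.symm x)⁻¹), hT ⟨_, rfl⟩, ?_, ?_⟩⟩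
  · change ε ((ε.symm y * (ε.symm x)⁻¹) * ε.symm x) = y
    simp
  · change ε ((ε.symm y * (ε.symm x)⁻¹) * ε.symm y) = x
    have h1 : (ε.symm y * (ε.symm x)⁻¹) * ε.symm y = ε.symm x := by
      have h2 : (ε.symm x)⁻¹ = ε.symm x := inv_eq_of_mul_eq_one_left (hsq _)
      rw [h2, mul_comm (ε.symm y), mul_assoc, hsq, mul_one]
    rw [h1]; simp

end Cfsg.Agent.Lib.Helper48
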