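import Mathlib

set_option autoImplicit false

namespace Cfsg.Agent.Lib.Helper48

/-- a subgroup of Sylow order meets a kernel in a subgroup of Sylow order -/
theorem card_ker_of_sylow_card {G A H : Type*} [Group G] [Finite G] [Group A] [Group H] (p : ℕ)
    [Fact p.Prime] (f : G →* A) (θ : H →* G) (hθ : Function.Injective θ)
    (hcard : Nat.card H = p ^ (Nat.card G).factorization p) :
    Nat.card (f.comp θ).ker = p ^ (Nat.card f.ker).factorization p := by
  have hp : p.Prime := Fact.out
  have : Finite H := Finite.of_injective θ hθ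
  have h1 : Nat.card (f.comp θ).ker * Nat.card (f.comp θ).range = Nat.card H := by
    rw [← Subgroup.index_ker]; exact Subgroup.card_mul_index _
  have h2 : Nat.card f.ker * Nat.card f.range = Nat.card G := by
    rw [← Subgroup.index_ker]; exact Subgroup.card_mul_index _
  have h3 : Nat.card (f.comp θ).range ∣ Nat.card f.range := by
    apply Subgroup.card_dvd_of_le
    rintro _ ⟨x, rfl⟩
    exact ⟨θ x, rfl⟩
  have h4 : Nat.card (f.comp θ).ker ∣ Nat.card f.ker := by
    let ι : (f.comp θ).ker →* f.ker := (θ.comp (f.comp θ).ker.subtype).codRestrict f.ker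
      (fun x => x.2)
    apply Subgroup.card_dvd_of_injective ι
    intro a b hab
    exact Subtype.ext (hθ (congrArg Subtype.val hab))
  have hc : Nat.card f.ker ≠ 0 := Nat.card_pos.ne'
  have hd : Nat.card f.range ≠ 0 := by
    intro h
    rw [h, mul_zero] at h2
    exact Nat.card_pos.ne' h2.symm
  rw [hcard, ← h2, Nat.factorization_mul hc hd, Finsupp.add_apply] at h1
  obtain ⟨k, -, hk⟩ := (Nat.dvd_prime_pow hp).1 (Dvd.intro _ h1)
  obtain ⟨l, -, hl⟩ := (Nat.dvd_prime_pow hp).1 (Dvd.intro_left _ h1)
  rw [hk] at h4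
  rw [hl] at h3
  have e1 := (hp.pow_dvd_iff_le_factorization hc).1 h4
  have e2 := (hp.pow_dvd_iff_le_factorization hd).1 h3
  rw [hk, hl, ← pow_add] at h1
  have e3 := Nat.pow_right_injective hp.two_le h1
  rw [hk]
  congr 1
  omega

end Cfsg.Agent.Lib.Helper48
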