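import Mathlib
import Cfsg.Agent.Lib.Helper48.SylTorus
import Cfsg.Agent.Lib.Helper6.SLCard

set_option autoImplicit false
set_option linter.unusedSectionVars false

namespace Cfsg.Agent.Lib.Helper48

open Module

variable {F : Type*} [Field F]

/-- the diagonal torus of `SL_(k+1)` -/
noncomputable def diagSL (k : ℕ) : (Fin k → Fˣ) →* Matrix.SpecialLinearGroup (Fin (k + 1)) F where
  toFun c := ⟨Matrix.diagonal (fun i => ((Fin.cons (∏ j, c j)⁻¹ c : Fin (k + 1) → Fˣ) i : F)), by
    rw [Matrix.det_diagonal, Fin.prod_univ_succ]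
    simp only [Fin.cons_zero, Fin.cons_succ]
    rw [← Units.coe_prod, ← Units.val_mul, inv_mul_cancel, Units.val_one]⟩
  map_one' := by
    apply Subtype.ext
    ext i j
    refine Fin.cases ?_ (fun i => ?_) i <;> simp [Matrix.diagonal_apply, Matrix.one_apply]
  map_mul' a b := by
    apply Subtype.ext
    change Matrix.diagonal _ = Matrix.diagonal _ * Matrix.diagonal _
    rw [Matrix.diagonal_mul_diagonal]
    congr 1
    funext i
    refine Fin.cases ?_ (fun i => ?_) i
    · simp [Finset.prod_mul_distrib, mul_comm]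
    · simp

theorem diagSL_injective (k : ℕ) : Function.Injective (diagSL (F := F) k) := by
  intro a b h
  funext i
  have h1 := congrArg (fun M : Matrix.SpecialLinearGroup (Fin (k + 1)) F =>
    (M : Matrix (Fin (k + 1)) (Fin (k + 1)) F) i.succ i.succ) h
  change Matrix.diagonal _ i.succ i.succ = Matrix.diagonal _ i.succ i.succ at h1
  rw [Matrix.diagonal_apply_eq, Matrix.diagonal_apply_eq, Fin.cons_succ, Fin.cons_succ] at h1
  exact Units.ext h1

/-- a hom to `GL_n` with values of determinant one factors through `SL_n` -/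
def liftSL {H : Type*} [Group H] {n : ℕ} (θ : H →* GL (Fin n) F)
    (h : ∀ x, ((θ x : GL (Fin n) F) : Matrix (Fin n) (Fin n) F).det = 1) :
    H →* Matrix.SpecialLinearGroup (Fin n) F where
  toFun x := ⟨((θ x : GL (Fin n) F) : Matrix (Fin n) (Fin n) F), h x⟩
  map_one' := by
    apply Subtype.ext
    simp
  map_mul' a b := by
    apply Subtype.ext
    change ((θ (a * b) : GL (Fin n) F) : Matrix (Fin n) (Fin n) F) =
      ((θ a : GL (Fin n) F) : Matrix (Fin n) (Fin n) F) * ((θ b : GL (Fin n) F) : Matrix (Fin n) (Fin n) F)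
    rw [map_mul, Units.val_mul]

theorem liftSL_injective {H : Type*} [Group H] {n : ℕ} (θ : H →* GL (Fin n) F)
    (h : ∀ x, ((θ x : GL (Fin n) F) : Matrix (Fin n) (Fin n) F).det = 1)
    (hθ : Function.Injective θ) : Function.Injective (liftSL θ h) := by
  intro a b hab
  apply hθ
  apply Units.ext
  exact congrArg Subtype.val hab

theorem det_eq_one_of_coprime [Finite F] {H : Type*} [Group H] [Finite H] {n : ℕ}
    (θ : H →* GL (Fin n) F) (hcop : (Nat.card H).Coprime (Nat.card F - 1)) (x : H) :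
    ((θ x : GL (Fin n) F) : Matrix (Fin n) (Fin n) F).det = 1 := by
  classical
  have := Fintype.ofFinite F
  have h1 : (Matrix.GeneralLinearGroup.det (θ x)) ^ (Nat.card H) = 1 := by
    rw [← map_pow, ← map_pow, pow_card_eq_one', map_one, map_one]
  have h2 : (Matrix.GeneralLinearGroup.det (θ x)) ^ (Nat.card F - 1) = 1 := by
    have h3 := pow_card_eq_one' (x := Matrix.GeneralLinearGroup.det (θ x))
    rwa [Nat.card_eq_fintype_card, Fintype.card_units, ← Nat.card_eq_fintype_card] at h3
  have h4 : Matrix.GeneralLinearGroup.det (θ x) = 1 := by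
    have h5 := pow_gcd_eq_one.2 ⟨h1, h2⟩
    rwa [hcop, pow_one] at h5
  have h5 := congrArg (fun u : Fˣ => (u : F)) h4
  simpa using h5

theorem card_filter_Icc_two (n d : ℕ) (hd : 2 ≤ d) :
    ((Finset.Icc 2 n).filter (fun i => d ∣ i)).card = n / d := by
  rw [← Nat.Ioc_filter_dvd_card_eq_div n d]
  congr 1
  ext i
  simp only [Finset.mem_filter, Finset.mem_Icc, Finset.mem_Ioc]
  constructor
  · rintro ⟨⟨h1, h2⟩, h3⟩
    exact ⟨⟨by omega, h2⟩, h3⟩
  · rintro ⟨⟨h1, h2⟩, h3⟩
    have := Nat.le_of_dvd h1 h3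
    exact ⟨⟨by omega, h2⟩, h3⟩

theorem card_filter_Icc_two_one (n : ℕ) :
    ((Finset.Icc 2 n).filter (fun i => 1 ∣ i)).card = n - 1 := by
  simp

end Cfsg.Agent.Lib.Helper48
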