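import Mathlib
import Cfsg.Agent.Lib.Helper48.SylTorus
import Cfsg.Agent.Lib.Helper44.LawEmbed
import Cfsg.Agent.S0245

set_option autoImplicit false
set_option linter.unusedSectionVars false

namespace Cfsg.Agent.Lib.Helper48

open Module Finset

variable {q r : ℕ}

/-- the `r`-part of `q^j - 1` for `r ∤ j` -/
theorem factorization_pow_sub_one' [Fact r.Prime] (hq : 2 ≤ q) (hrq : ¬ r ∣ q) (j : ℕ)
    (hj : ¬ r ∣ j) :
    (q ^ j - 1).factorization r =
      if orderOf (q : ZMod r) ∣ j then (q ^ orderOf (q : ZMod r) - 1).factorization r else 0 := by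
  split_ifs with h
  · obtain ⟨l, rfl⟩ := h
    exact factorization_pow_mul_sub_one hq hrq l (fun h => hj (Dvd.dvd.mul_left h _))
  · exact Nat.factorization_eq_zero_of_not_dvd
      (fun h' => h ((dvd_pow_sub_one_iff_orderOf (by omega) j).1 h'))

theorem card_filter_Icc_one (n d : ℕ) :
    ((Icc 1 n).filter (fun i => d ∣ 2 * i)).card =
      ((range n).filter (fun i => d ∣ 2 * (i + 1))).card := by
  symm
  apply card_bij (fun i _ => i + 1)
  · intro i hi
    simp only [mem_filter, mem_range, mem_Icc] at hi ⊢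
    exact ⟨⟨by omega, by omega⟩, hi.2⟩
  · intro i _ j _ h
    omega
  · intro j hj
    simp only [mem_filter, mem_Icc] at hj
    refine ⟨j - 1, ?_, by omega⟩
    simp only [mem_filter, mem_range]
    have : j - 1 + 1 = j := by omega
    rw [this]
    exact ⟨by omega, hj.2⟩

/-- the `r`-part of the order of `Sp_{2n}(q)` -/
theorem factorization_card_Sp [Fact r.Prime] (hq : 2 ≤ q) (hrq : ¬ r ∣ q) (hr2 : r ≠ 2) (n : ℕ)
    (hn : n < r) :
    (q ^ (n ^ 2) * ∏ i ∈ range n, (q ^ (2 * (i + 1)) - 1)).factorization r =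
      ((Icc 1 n).filter (fun i => orderOf (q : ZMod r) ∣ 2 * i)).card *
        (q ^ orderOf (q : ZMod r) - 1).factorization r := by
  have hr : r.Prime := Fact.out
  have hne : ∀ i ∈ range n, q ^ (2 * (i + 1)) - 1 ≠ 0 := by
    intro i _
    have : 2 ≤ q ^ (2 * (i + 1)) := by
      calc 2 ≤ q := hq
        _ = q ^ 1 := (pow_one q).symm
        _ ≤ q ^ (2 * (i + 1)) := Nat.pow_le_pow_right (by omega) (by omega)
    omega
  rw [Nat.factorization_mul (pow_ne_zero _ (by omega)) (prod_ne_zero_iff.2 hne), Finsupp.add_apply,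
    Nat.factorization_eq_zero_of_not_dvd (fun h => hrq (hr.dvd_of_dvd_pow h)), zero_add,
    Nat.factorization_prod_apply hne, card_filter_Icc_one]
  have h1 : ∀ i ∈ range n, (q ^ (2 * (i + 1)) - 1).factorization r =
      if orderOf (q : ZMod r) ∣ 2 * (i + 1) then (q ^ orderOf (q : ZMod r) - 1).factorization r
      else 0 := by
    intro i hi
    apply factorization_pow_sub_one' hq hrq
    intro h
    have hi' := mem_range.1 hi
    rcases (Nat.Prime.dvd_mul hr).1 h with h | h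
    · exact hr2 ((Nat.prime_dvd_prime_iff_eq hr Nat.prime_two).1 h)
    · have := Nat.le_of_dvd (Nat.succ_pos i) h
      omega
  rw [sum_congr rfl h1, ← sum_filter, sum_const, smul_eq_mul]

theorem card_filter_of_odd (n d : ℕ) (hd : Odd d) :
    ((Icc 1 n).filter (fun i => d ∣ 2 * i)).card = n / d := by
  rw [← Nat.Ioc_filter_dvd_card_eq_div n d]
  congr 1
  ext i
  simp only [mem_filter, mem_Icc, mem_Ioc]
  have hc : Nat.Coprime d 2 := Nat.Coprime.symm (Nat.coprime_two_left.2 hd)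
  constructor
  · rintro ⟨⟨h1, h2⟩, h3⟩
    exact ⟨⟨by omega, h2⟩, hc.dvd_of_dvd_mul_left h3⟩
  · rintro ⟨⟨h1, h2⟩, h3⟩
    exact ⟨⟨by omega, h2⟩, Dvd.dvd.mul_left h3 2⟩

theorem card_filter_of_even (n d : ℕ) (hd0 : 0 < d) (hd : Even d) :
    ((Icc 1 n).filter (fun i => d ∣ 2 * i)).card = (n + n) / d := by
  obtain ⟨e, rfl⟩ := hd
  have he : 0 < e := by omega
  have h1 : (n + n) / (e + e) = n / e := by
    rw [← two_mul, ← two_mul, Nat.mul_div_mul_left _ _ (by norm_num)]
  rw [h1, ← Nat.Ioc_filter_dvd_card_eq_div n e]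
  congr 1
  ext i
  simp only [mem_filter, mem_Icc, mem_Ioc]
  rw [← two_mul, Nat.mul_dvd_mul_iff_left (by norm_num)]
  constructor
  · rintro ⟨⟨h1, h2⟩, h3⟩
    exact ⟨⟨by omega, h2⟩, h3⟩
  · rintro ⟨⟨h1, h2⟩, h3⟩
    exact ⟨⟨by omega, h2⟩, h3⟩

end Cfsg.Agent.Lib.Helper48
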