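import Mathlib
import Cfsg.Agent.Lib.Helper48.SympInvol
import Cfsg.Agent.Lib.Helper17.SympFrame
import Cfsg.Agent.Lib.Helper17.SympCoord

set_option autoImplicit false
set_option linter.unusedSectionVars false

namespace Cfsg.Agent.Lib.Helper48

open Module LinearMap Matrix Cfsg.Agent.Lib.Helper17

variable {F : Type*} [Field F] [CharP F 2] {m : ℕ}

/-- the nilpotent part `a - 1` as an endomorphism -/
noncomputable def nilOf (a : Matrix.symplecticGroup (Fin m) F) : End F (Fin m ⊕ Fin m → F) :=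
  Matrix.toLin' ((a : Matrix (Fin m ⊕ Fin m) (Fin m ⊕ Fin m) F) - 1)

theorem nilOf_apply (a : Matrix.symplecticGroup (Fin m) F) (v : Fin m ⊕ Fin m → F) :
    nilOf a v = (a : Matrix (Fin m ⊕ Fin m) (Fin m ⊕ Fin m) F) *ᵥ v - v := by
  rw [nilOf, Matrix.toLin'_apply, Matrix.sub_mulVec, Matrix.one_mulVec]

theorem mulVec_eq_add_nilOf (a : Matrix.symplecticGroup (Fin m) F) (v : Fin m ⊕ Fin m → F) :
    (a : Matrix (Fin m ⊕ Fin m) (Fin m ⊕ Fin m) F) *ᵥ v = v + nilOf a v := by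
  rw [nilOf_apply]; abel

theorem finrank_range_nilOf (a : Matrix.symplecticGroup (Fin m) F) :
    finrank F (range (nilOf a)) = ((a : Matrix (Fin m ⊕ Fin m) (Fin m ⊕ Fin m) F) - 1).rank := by
  rw [nilOf, Matrix.toLin'_apply']
  rfl

theorem mulVec_mulVec_of_order_two {a : Matrix.symplecticGroup (Fin m) F} (ha : orderOf a = 2)
    (v : Fin m ⊕ Fin m → F) :
    (a : Matrix (Fin m ⊕ Fin m) (Fin m ⊕ Fin m) F) *ᵥ
      ((a : Matrix (Fin m ⊕ Fin m) (Fin m ⊕ Fin m) F) *ᵥ v) = v := by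
  have h1 : a * a = 1 := by rw [← pow_two, ← ha, pow_orderOf_eq_one]
  rw [← sp_coe_mul_mulVec, h1]
  simp

theorem nilOf_sq {a : Matrix.symplecticGroup (Fin m) F} (ha : orderOf a = 2) :
    nilOf a * nilOf a = 0 := by
  apply LinearMap.ext
  intro v
  rw [Module.End.mul_apply, nilOf_apply, nilOf_apply, Matrix.mulVec_sub,
    mulVec_mulVec_of_order_two ha]
  have h2 : (2 : F) = 0 := CharP.cast_eq_zero F 2
  have : v - (a : Matrix (Fin m ⊕ Fin m) (Fin m ⊕ Fin m) F) *ᵥ v -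
      ((a : Matrix (Fin m ⊕ Fin m) (Fin m ⊕ Fin m) F) *ᵥ v - v) =
      (2 : F) • (v - (a : Matrix (Fin m ⊕ Fin m) (Fin m ⊕ Fin m) F) *ᵥ v) := by
    rw [two_smul]; abel
  rw [this, h2, zero_smul]
  rfl

theorem nilOf_adj {a : Matrix.symplecticGroup (Fin m) F} (ha : orderOf a = 2)
    (x y : Fin m ⊕ Fin m → F) : sympB m F (nilOf a x) y = sympB m F x (nilOf a y) := by
  rw [nilOf_apply, nilOf_apply, map_sub, map_sub, LinearMap.sub_apply]
  congr 1
  rw [sympB_apply, sympB_apply]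
  conv_lhs => rw [← mulVec_mulVec_of_order_two ha y]
  rw [sp_sympForm]

theorem sympB_nilOf_self (a : Matrix.symplecticGroup (Fin m) F) (v : Fin m ⊕ Fin m → F) :
    sympB m F v (nilOf a v) =
      Cfsg.sympForm m F v ((a : Matrix (Fin m ⊕ Fin m) (Fin m ⊕ Fin m) F) *ᵥ v) := by
  rw [nilOf_apply, map_sub, sympB_apply, sympB_apply, sympForm_self, sub_zero]

theorem sympB_nd (x : Fin m ⊕ Fin m → F) (h : ∀ y, sympB m F x y = 0) : x = 0 := by
  apply sympForm_left_eq_zero m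
  intro y
  rw [← sympB_apply]
  exact h y

theorem nilOf_ne_zero {a : Matrix.symplecticGroup (Fin m) F} (ha : orderOf a = 2) :
    nilOf a ≠ 0 := by
  intro h0
  have h1 : (a : Matrix (Fin m ⊕ Fin m) (Fin m ⊕ Fin m) F) - 1 = 0 :=
    (LinearEquiv.map_eq_zero_iff _).1 h0
  have h3 : a = 1 := Subtype.ext (sub_eq_zero.1 h1)
  rw [h3, orderOf_one] at ha
  norm_num at ha

/-- two elements with the same normal form are conjugate -/
theorem isConj_of_normal_form {I : Type*} [Fintype I] (π : I → I)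
    (a b : Matrix.symplecticGroup (Fin m) F) (e e' : I → (Fin m ⊕ Fin m → F))
    (hli : LinearIndependent F e) (hli' : LinearIndependent F e')
    (hiso : ∀ i j, sympB m F (e i) (e j) = 0) (hiso' : ∀ i j, sympB m F (e' i) (e' j) = 0)
    (hN : ∀ v, nilOf a v = ∑ i, sympB m F v (e i) • e (π i))
    (hN' : ∀ v, nilOf b v = ∑ i, sympB m F v (e' i) • e' (π i)) : IsConj a b := by
  obtain ⟨A, hA⟩ := sp_witt_frame m e e' hli hli' (by
    intro i j
    rw [← sympB_apply, ← sympB_apply, hiso, hiso'])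
  rw [isConj_iff]
  refine ⟨A, ?_⟩
  rw [mul_inv_eq_iff_eq_mul]
  apply Subtype.ext
  rw [Matrix.ext_iff_mulVec]
  intro v
  rw [sp_coe_mul_mulVec, sp_coe_mul_mulVec, mulVec_eq_add_nilOf a, mulVec_eq_add_nilOf b, hN, hN',
    Matrix.mulVec_add, Matrix.mulVec_sum]
  congr 1
  apply Finset.sum_congr rfl
  intro i _
  rw [Matrix.mulVec_smul, hA, ← hA i, sympB_apply, sympB_apply, sp_sympForm]

/-- the alternating type -/
def IsAltInvol (a : Matrix.symplecticGroup (Fin m) F) : Prop :=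
  ∀ v, Cfsg.sympForm m F v ((a : Matrix (Fin m ⊕ Fin m) (Fin m ⊕ Fin m) F) *ᵥ v) = 0

theorem even_rank_of_isAltInvol {a : Matrix.symplecticGroup (Fin m) F} (ha : orderOf a = 2)
    (halt : IsAltInvol a) :
    Even ((a : Matrix (Fin m ⊕ Fin m) (Fin m ⊕ Fin m) F) - 1).rank := by
  obtain ⟨s, hs, -⟩ := exists_normal_form_alt (sympB_isAlt m) sympB_nd (nilOf_sq ha) (nilOf_adj ha)
    (fun v => by rw [sympB_nilOf_self]; exact halt v)
  rw [← finrank_range_nilOf, ← hs]
  exact even_two_mul s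

theorem rank_eq_of_isConj {a b : Matrix.symplecticGroup (Fin m) F} (h : IsConj a b) :
    ((a : Matrix (Fin m ⊕ Fin m) (Fin m ⊕ Fin m) F) - 1).rank =
      ((b : Matrix (Fin m ⊕ Fin m) (Fin m ⊕ Fin m) F) - 1).rank := by
  rw [isConj_iff] at h
  obtain ⟨c, hc⟩ := h
  have hc3 : c * a = b * c := by
    rw [← hc]; group
  have hc4 : (c : Matrix (Fin m ⊕ Fin m) (Fin m ⊕ Fin m) F) *
      ((a : Matrix (Fin m ⊕ Fin m) (Fin m ⊕ Fin m) F) - 1) =
      ((b : Matrix (Fin m ⊕ Fin m) (Fin m ⊕ Fin m) F) - 1) *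
        (c : Matrix (Fin m ⊕ Fin m) (Fin m ⊕ Fin m) F) := by
    have := congrArg (fun x : Matrix.symplecticGroup (Fin m) F =>
      (x : Matrix (Fin m ⊕ Fin m) (Fin m ⊕ Fin m) F)) hc3
    simp only [Submonoid.coe_mul] at this
    rw [mul_sub, sub_mul, mul_one, one_mul, this]
  have hu : IsUnit (c : Matrix (Fin m ⊕ Fin m) (Fin m ⊕ Fin m) F).det :=
    SymplecticGroup.symplectic_det c.2
  rw [← Matrix.rank_mul_eq_right_of_isUnit_det (c : Matrix (Fin m ⊕ Fin m) (Fin m ⊕ Fin m) F) _ hu,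
    hc4, Matrix.rank_mul_eq_left_of_isUnit_det _ _ hu]

theorem sympForm_conj (c a : Matrix.symplecticGroup (Fin m) F) (v : Fin m ⊕ Fin m → F) :
    Cfsg.sympForm m F ((c : Matrix (Fin m ⊕ Fin m) (Fin m ⊕ Fin m) F) *ᵥ v)
      (((c * a * c⁻¹ : Matrix.symplecticGroup (Fin m) F) :
        Matrix (Fin m ⊕ Fin m) (Fin m ⊕ Fin m) F) *ᵥ
        ((c : Matrix (Fin m ⊕ Fin m) (Fin m ⊕ Fin m) F) *ᵥ v)) =
      Cfsg.sympForm m F v ((a : Matrix (Fin m ⊕ Fin m) (Fin m ⊕ Fin m) F) *ᵥ v) := by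
  rw [sp_coe_mul_mulVec, sp_coe_mul_mulVec, sp_inv_mulVec, sp_sympForm]

theorem isAltInvol_conj (c a : Matrix.symplecticGroup (Fin m) F) (h : IsAltInvol a) :
    IsAltInvol (c * a * c⁻¹) := by
  intro v
  have := sympForm_conj c a ((c⁻¹ : Matrix.symplecticGroup (Fin m) F) *ᵥ v)
  rw [sp_mulVec_inv] at this
  rw [this]
  exact h _

theorem isAltInvol_iff_of_isConj {a b : Matrix.symplecticGroup (Fin m) F} (h : IsConj a b) :
    IsAltInvol a ↔ IsAltInvol b := by
  rw [isConj_iff] at h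
  obtain ⟨c, rfl⟩ := h
  constructor
  · exact isAltInvol_conj c a
  · intro h2
    have := isAltInvol_conj c⁻¹ _ h2
    have e : c⁻¹ * (c * a * c⁻¹) * c⁻¹⁻¹ = a := by group
    rwa [e] at this

/-- classification of involutions of the symplectic group in characteristic two -/
theorem isConj_invol_iff (hK : ∀ c : F, IsSquare c) (a b : Matrix.symplecticGroup (Fin m) F)
    (ha : orderOf a = 2) (hb : orderOf b = 2) :
    IsConj a b ↔ (((a : Matrix (Fin m ⊕ Fin m) (Fin m ⊕ Fin m) F) - 1).rank =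
      ((b : Matrix (Fin m ⊕ Fin m) (Fin m ⊕ Fin m) F) - 1).rank ∧
      (IsAltInvol a ↔ IsAltInvol b)) := by
  constructor
  · intro h
    exact ⟨rank_eq_of_isConj h, isAltInvol_iff_of_isConj h⟩
  · rintro ⟨hrank, halt⟩
    rw [← finrank_range_nilOf, ← finrank_range_nilOf] at hrank
    by_cases hA : IsAltInvol a
    · obtain ⟨s, hs, e, hli, hiso, hN⟩ := exists_normal_form_alt (sympB_isAlt m) sympB_nd
        (nilOf_sq ha) (nilOf_adj ha) (fun v => by rw [sympB_nilOf_self]; exact hA v)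
      obtain ⟨s', hs', e', hli', hiso', hN'⟩ := exists_normal_form_alt (sympB_isAlt m) sympB_nd
        (nilOf_sq hb) (nilOf_adj hb) (fun v => by rw [sympB_nilOf_self]; exact halt.1 hA v)
      obtain rfl : s = s' := by omega
      exact isConj_of_normal_form Sum.swap a b e e' hli hli' hiso hiso' hN hN'
    · have hB : ¬ IsAltInvol b := fun h => hA (halt.2 h)
      unfold IsAltInvol at hA hB
      push Not at hA hB
      obtain ⟨e, hli, hiso, hN⟩ := exists_normal_form_nonalt hK (sympB_isAlt m) sympB_nd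
        (nilOf_sq ha) (nilOf_adj ha) (by
          obtain ⟨v, hv⟩ := hA
          exact ⟨v, by rw [sympB_nilOf_self]; exact hv⟩)
      obtain ⟨e', hli', hiso', hN'⟩ := exists_normal_form_nonalt hK (sympB_isAlt m) sympB_nd
        (nilOf_sq hb) (nilOf_adj hb) (by
          obtain ⟨v, hv⟩ := hB
          exact ⟨v, by rw [sympB_nilOf_self]; exact hv⟩)
      generalize finrank F (range (nilOf a)) = r at hrank e hli hiso hN
      subst hrank
      exact isConj_of_normal_form id a b e e' hli hli' hiso hiso' hN hN'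

end Cfsg.Agent.Lib.Helper48
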