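import Mathlib
import Cfsg.Agent.Lib.Helper48.SympInvolMat

set_option autoImplicit false
set_option linter.unusedSectionVars false

namespace Cfsg.Agent.Lib.Helper48

open Module LinearMap Matrix Cfsg.Agent.Lib.Helper17

variable {F : Type*} [Field F] [Fintype F] [CharP F 2] {m : ℕ}

theorem card_vec : Nat.card (Fin m ⊕ Fin m → F) = Fintype.card F ^ (2 * m) := by
  rw [Nat.card_eq_fintype_card, Fintype.card_fun, Fintype.card_sum, Fintype.card_fin, two_mul]

theorem card_singular_of_alt {a : Matrix.symplecticGroup (Fin m) F} (halt : IsAltInvol a) :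
    Nat.card {v : Fin m ⊕ Fin m → F // Cfsg.sympForm m F v
      (Matrix.mulVec (a : Matrix (Fin m ⊕ Fin m) (Fin m ⊕ Fin m) F) v) = 0} =
      Fintype.card F ^ (2 * m) := by
  rw [Nat.card_congr (Equiv.subtypeUnivEquiv halt), card_vec]

theorem card_singular_of_not_alt {a : Matrix.symplecticGroup (Fin m) F} (ha : orderOf a = 2)
    (halt : ¬ IsAltInvol a) :
    Nat.card {v : Fin m ⊕ Fin m → F // Cfsg.sympForm m F v
      (Matrix.mulVec (a : Matrix (Fin m ⊕ Fin m) (Fin m ⊕ Fin m) F) v) = 0} * Fintype.card F =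
      Fintype.card F ^ (2 * m) := by
  have hK : ∀ c : F, IsSquare c := FiniteField.isSquare_of_char_two (ringChar.eq F 2)
  unfold IsAltInvol at halt
  push Not at halt
  obtain ⟨e, hli, hiso, hN⟩ := exists_normal_form_nonalt hK (sympB_isAlt m) sympB_nd
    (nilOf_sq ha) (nilOf_adj ha) (by
      obtain ⟨v, hv⟩ := halt
      exact ⟨v, by rw [sympB_nilOf_self]; exact hv⟩)
  have hform : ∀ v, Cfsg.sympForm m F v
      (Matrix.mulVec (a : Matrix (Fin m ⊕ Fin m) (Fin m ⊕ Fin m) F) v) =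
      sympB m F v (∑ i, e i) * sympB m F v (∑ i, e i) := by
    intro v
    rw [← sympB_nilOf_self, hN, map_sum, map_sum, CharTwo.sum_mul_self]
    apply Finset.sum_congr rfl
    intro i _
    rw [map_smul, smul_eq_mul]
  obtain ⟨v₀, hv₀⟩ := halt
  let φ : Dual F (Fin m ⊕ Fin m → F) := (sympB m F).flip (∑ i, e i)
  have hφ : ∀ v, φ v = sympB m F v (∑ i, e i) := fun v => rfl
  have hφ0 : φ ≠ 0 := by
    intro h0
    apply hv₀
    rw [hform, ← hφ, h0]
    simp
  have e1 : {v : Fin m ⊕ Fin m → F // Cfsg.sympForm m F v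
      (Matrix.mulVec (a : Matrix (Fin m ⊕ Fin m) (Fin m ⊕ Fin m) F) v) = 0} ≃ ker φ :=
    Equiv.subtypeEquivRight (fun v => by
      rw [LinearMap.mem_ker, hφ, hform, mul_self_eq_zero])
  have h1 := Module.Dual.finrank_ker_add_one_of_ne_zero hφ0
  rw [Module.finrank_pi, Fintype.card_sum, Fintype.card_fin] at h1
  rw [Nat.card_congr e1, Module.natCard_eq_pow_finrank (K := F), Nat.card_eq_fintype_card,
    ← pow_succ, h1, two_mul]

theorem isAltInvol_iff_of_card_eq {a b : Matrix.symplecticGroup (Fin m) F} (ha : orderOf a = 2)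
    (hb : orderOf b = 2)
    (h : Nat.card {v : Fin m ⊕ Fin m → F // Cfsg.sympForm m F v
      (Matrix.mulVec (a : Matrix (Fin m ⊕ Fin m) (Fin m ⊕ Fin m) F) v) = 0} =
      Nat.card {v : Fin m ⊕ Fin m → F // Cfsg.sympForm m F v
      (Matrix.mulVec (b : Matrix (Fin m ⊕ Fin m) (Fin m ⊕ Fin m) F) v) = 0}) :
    IsAltInvol a ↔ IsAltInvol b := by
  have hq : 1 < Fintype.card F := Fintype.one_lt_card
  have hpos : 0 < Fintype.card F ^ (2 * m) := by positivity
  have key : ∀ {x y : Matrix.symplecticGroup (Fin m) F}, orderOf y = 2 →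
      Nat.card {v : Fin m ⊕ Fin m → F // Cfsg.sympForm m F v
        (Matrix.mulVec (x : Matrix (Fin m ⊕ Fin m) (Fin m ⊕ Fin m) F) v) = 0} =
      Nat.card {v : Fin m ⊕ Fin m → F // Cfsg.sympForm m F v
        (Matrix.mulVec (y : Matrix (Fin m ⊕ Fin m) (Fin m ⊕ Fin m) F) v) = 0} →
      IsAltInvol x → IsAltInvol y := by
    intro x y hy hxy hx
    by_contra hcon
    have h1 := card_singular_of_alt hx
    have h2 := card_singular_of_not_alt hy hcon
    rw [← hxy, h1] at h2
    have : Fintype.card F ^ (2 * m) * 1 < Fintype.card F ^ (2 * m) * Fintype.card F :=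
      Nat.mul_lt_mul_of_pos_left hq hpos
    omega
  exact ⟨key hb h, key ha h.symm⟩

theorem card_eq_of_isAltInvol_iff {a b : Matrix.symplecticGroup (Fin m) F} (ha : orderOf a = 2)
    (hb : orderOf b = 2) (h : IsAltInvol a ↔ IsAltInvol b) :
    Nat.card {v : Fin m ⊕ Fin m → F // Cfsg.sympForm m F v
      (Matrix.mulVec (a : Matrix (Fin m ⊕ Fin m) (Fin m ⊕ Fin m) F) v) = 0} =
      Nat.card {v : Fin m ⊕ Fin m → F // Cfsg.sympForm m F v
      (Matrix.mulVec (b : Matrix (Fin m ⊕ Fin m) (Fin m ⊕ Fin m) F) v) = 0} := by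
  by_cases hA : IsAltInvol a
  · rw [card_singular_of_alt hA, card_singular_of_alt (h.1 hA)]
  · have h1 := card_singular_of_not_alt ha hA
    have h2 := card_singular_of_not_alt hb (fun hB => hA (h.2 hB))
    have hq : 0 < Fintype.card F := Fintype.card_pos
    exact Nat.eq_of_mul_eq_mul_right hq (h1.trans h2.symm)

end Cfsg.Agent.Lib.Helper48
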