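import Mathlib
import Cfsg.Agent.Lib.Helper48.UType

set_option autoImplicit false
set_option linter.unusedSectionVars false
set_option linter.style.haveILetI false

namespace Cfsg.Agent.Lib.Helper48

open Module Polynomial Cfsg.Agent.Lib.Helper17

universe u

variable {F : Type u} [Field F] [Fintype F] {q n : ℕ}

theorem UData.dag_minpoly_dvd (hF : Fintype.card F = q ^ 2) {T T' : End F (Fin n → F)}
    (h : UData q T T') : dag hF (minpoly F T) ∣ minpoly F T := by
  set m := minpoly F T with hm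
  have hm0 : m ≠ 0 := minpoly.ne_zero (Algebra.IsIntegral.isIntegral T)
  have h1 : m ∣ dag hF m := minpoly.dvd F T (h.aeval_dag_eq_zero hF (minpoly.aeval F T))
  obtain ⟨w, hw⟩ := h1
  have hd0 : dag hF m ≠ 0 := dag_ne_zero hF hm0
  have hw0 : w ≠ 0 := by
    rintro rfl
    rw [mul_zero] at hw
    exact hd0 hw
  have h2 : w.natDegree = 0 := by
    have h3 := natDegree_dag_le hF m
    rw [hw, natDegree_mul hm0 hw0] at h3
    omega
  have hwu : IsUnit w := by
    rw [eq_C_of_natDegree_eq_zero h2] at hw0 ⊢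
    exact Polynomial.isUnit_C.2 (by simpa using hw0 : w.coeff 0 ≠ 0).isUnit
  rw [hw]
  exact (hwu.mul_right_dvd).2 dvd_rfl

/-- an element of `SU_{2m}(q)` whose projective order is divisible by a prime `s` with
`ord_s(q^2) = m` lying in no torus of type `GU_1(q^e)` sits in the torus `GL_1(q^{2m})` -/
theorem scalar_of_ppd_u (hF : Fintype.card F = q ^ 2) {m : ℕ} (hm : 2 ≤ m)
    (x : ↥(Cfsg.SU (2 * m) F q)) {a : ℕ} (ha0 : 0 < a) (ha : POrd (opSU x) a) {s : ℕ}
    (hs : s.Prime) (hsa : s ∣ a) (hsq : ¬ s ∣ q) (hord : ∀ e, s ∣ (q ^ 2) ^ e - 1 → m ∣ e)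
    (hA : ∀ e, Odd e → m ∣ e → e ≤ 2 * m → ¬ s ∣ q ^ e + 1) :
    a ∣ uM q (2 * m) / Nat.gcd (2 * m) (q + 1) := by
  classical
  haveI : Fact s.Prime := ⟨hs⟩
  have hq2 : 2 ≤ q := two_le_of_card_sq hF
  haveI : Nonempty (Fin (2 * m)) := ⟨⟨0, by omega⟩⟩
  have hU := udata_opSU x
  set T := opSU x with hT
  have hdet : LinearMap.det T = 1 := det_opSU x
  have hu : IsUnit T := isUnit_of_det_eq_one hdet
  obtain ⟨a', rfl⟩ := hsa
  have ha'0 : 0 < a' := by
    rcases Nat.eq_zero_or_pos a' with h0 | h0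
    · rw [h0, mul_zero] at ha0; omega
    · exact h0
  obtain ⟨c, hc⟩ := (ha (s * a')).2 dvd_rfl
  have hc0 : c ≠ 0 := smul_one_ne_zero_of_isUnit (V := Fin (2 * m) → F) (hc ▸ hu.pow _)
  set N₀ := (q ^ 2 - 1) * a' with hN₀
  have hN₀pos : 0 < N₀ := by
    have : 4 ≤ q ^ 2 := by nlinarith
    have : 0 < q ^ 2 - 1 := by omega
    positivity
  have hT1 : T ^ (N₀ * s) = 1 := by
    have h1 := FiniteField.pow_card_sub_one_eq_one c hc0
    rw [hF] at h1
    rw [hN₀, show (q ^ 2 - 1) * a' * s = (s * a') * (q ^ 2 - 1) by ring, pow_mul, hc,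
      _root_.smul_pow, one_pow, h1, one_smul]
  have hT0 : T ^ N₀ ≠ 1 := by
    intro h
    have h1 : s * a' ∣ (q ^ 2 - 1) * a' := (ha _).1 ⟨1, by rw [one_smul]; exact h⟩
    have h2 : s ∣ q ^ 2 - 1 := Nat.dvd_of_mul_dvd_mul_right ha'0 h1
    have h3 := hord 1 (by simpa using h2)
    have := Nat.le_of_dvd (by norm_num) h3
    omega
  set P : F[X] := X ^ N₀ - 1 with hP
  set R : F[X] := ∑ i ∈ Finset.range s, (X ^ N₀) ^ i with hR
  have hPR : R * P = X ^ (N₀ * s) - 1 := by rw [hR, hP, geom_sum_mul, ← pow_mul]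
  have hsF : (s : F) ≠ 0 := by
    intro h
    obtain ⟨p, hp⟩ := CharP.exists F
    have hpp : p.Prime := CharP.char_is_prime F p
    haveI : Fact p.Prime := ⟨hpp⟩
    have h1 : p ∣ s := (CharP.cast_eq_zero_iff F p s).1 h
    have h2 : p = s := (Nat.prime_dvd_prime_iff_eq hpp hs).1 h1
    apply hsq
    rw [← h2]
    have h3 : p ∣ Fintype.card F := by
      obtain ⟨k, -, hk⟩ := FiniteField.card F p
      rw [hk]
      exact dvd_pow_self p k.ne_zero
    rw [hF] at h3
    exact hpp.dvd_of_dvd_pow h3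
  have hcop : IsCoprime P R := by
    have h1 : P ∣ R - C (s : F) := by
      have h2 : R - C (s : F) = ∑ i ∈ Finset.range s, ((X ^ N₀) ^ i - 1) := by
        rw [Finset.sum_sub_distrib, Finset.sum_const, Finset.card_range, hR]
        simp
      rw [h2]
      apply Finset.dvd_sum
      intro i _
      have := sub_dvd_pow_sub_pow (X ^ N₀ : F[X]) 1 i
      rwa [one_pow] at this
    obtain ⟨W, hW⟩ := h1
    have h3 : R = C (s : F) + P * W := by rw [← hW]; ring
    rw [h3]
    apply IsCoprime.add_mul_left_right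
    exact ⟨0, C ((s : F)⁻¹), by rw [zero_mul, zero_add, ← C_mul, inv_mul_cancel₀ hsF, C_1]⟩
  have hmin : minpoly F T ∣ R * P := by
    apply minpoly.dvd
    rw [hPR]
    simp [hT1]
  have hnP : ¬ minpoly F T ∣ P := by
    rintro ⟨w, hw⟩
    apply hT0
    have h1 : aeval T P = 0 := by rw [hw, map_mul, minpoly.aeval, zero_mul]
    rw [hP] at h1
    simpa [sub_eq_zero] using h1
  have hncop : ¬ IsCoprime (minpoly F T) R := fun h => hnP (h.dvd_of_dvd_mul_left hmin)
  obtain ⟨f, hfm, hf, hfd⟩ := exists_monic_irreducible_factor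
    (EuclideanDomain.gcd (minpoly F T) R) (fun h => hncop (EuclideanDomain.gcd_isUnit_iff.1 h))
  have hfmin : f ∣ minpoly F T := hfd.trans (EuclideanDomain.gcd_dvd_left _ _)
  have hfR : f ∣ R := hfd.trans (EuclideanDomain.gcd_dvd_right _ _)
  have hfP : ¬ f ∣ P := fun h => hf.not_isUnit (hcop.isUnit_of_dvd' h hfR)
  have hfall : f ∣ X ^ (N₀ * s) - 1 := hPR ▸ (hfR.mul_right P)
  set e := f.natDegree with he
  have he1 : 1 ≤ e := hf.natDegree_pos
  haveI : Fact (Irreducible f) := ⟨hf⟩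
  set θ : AdjoinRoot f := AdjoinRoot.root f with hθ
  have hroot : ∀ k : ℕ, f ∣ X ^ k - 1 ↔ θ ^ k = 1 := by
    intro k
    rw [← AdjoinRoot.mk_eq_zero, map_sub, map_pow, AdjoinRoot.mk_X, map_one, sub_eq_zero]
  set y := θ ^ N₀ with hy
  have hys : y ^ s = 1 := by rw [hy, ← pow_mul]; exact (hroot _).1 hfall
  have hy1 : y ≠ 1 := fun h => hfP ((hroot _).2 h)
  have hyo : orderOf y = s := orderOf_eq_prime hys hy1
  have hy0 : y ≠ 0 := by
    intro h
    rw [h, zero_pow hs.ne_zero] at hys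
    exact zero_ne_one hys
  haveI : FiniteDimensional F (AdjoinRoot f) := (AdjoinRoot.powerBasis hf.ne_zero).finite
  haveI : Finite (AdjoinRoot f) := Module.finite_of_finite F
  haveI : Fintype (AdjoinRoot f) := Fintype.ofFinite _
  have hcard : Fintype.card (AdjoinRoot f) = (q ^ 2) ^ e := by
    rw [Module.card_eq_pow_finrank (K := F), (AdjoinRoot.powerBasis hf.ne_zero).finrank,
      AdjoinRoot.powerBasis_dim, hF]
  have hme : m ∣ e := by
    apply hord
    rw [← hyo, ← hcard]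
    exact orderOf_dvd_of_pow_eq_one (FiniteField.pow_card_sub_one_eq_one y hy0)
  have hchar0 : T.charpoly ≠ 0 := (LinearMap.charpoly_monic T).ne_zero
  have hchard : T.charpoly.natDegree = 2 * m := by
    rw [LinearMap.charpoly_natDegree, Module.finrank_fin_fun]
  have hle : e ≤ 2 * m := by
    have := natDegree_le_of_dvd (hfmin.trans (LinearMap.minpoly_dvd_charpoly T)) hchar0
    rwa [hchard] at this
  have hf0 : f.coeff 0 ≠ 0 := by
    intro h0
    have h1 : (X : F[X]) ∣ X ^ (N₀ * s) - 1 := (X_dvd_iff.2 h0).trans hfall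
    have h2 : (X : F[X]) ∣ X ^ (N₀ * s) := dvd_pow_self X (by
      have := hs.pos
      positivity)
    have h3 : (X : F[X]) ∣ 1 := by
      have := dvd_sub h2 h1
      rwa [sub_sub_cancel] at this
    exact not_isUnit_X (isUnit_of_dvd_one h3)
  have hB : ¬ f ∣ dag hF f := by
    intro hA'
    obtain ⟨hodd, hd⟩ := ft_of_dvd_reverse_map hF hf hA'
    apply hA e hodd hme hle
    rw [← hyo]
    apply orderOf_dvd_of_pow_eq_one
    rw [hy, ← pow_mul, mul_comm, pow_mul, (hroot _).1 hd, one_pow]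
  have hcop2 : IsCoprime f (dag hF f) := (hf.isCoprime_or_dvd _).resolve_right hB
  have hdagmin : dag hF f ∣ minpoly F T := (dag_dvd hF hfmin).trans (hU.dag_minpoly_dvd hF)
  have hprod : f * dag hF f ∣ T.charpoly :=
    (hcop2.mul_dvd hfmin hdagmin).trans (LinearMap.minpoly_dvd_charpoly T)
  have hdegprod : (f * dag hF f).natDegree = 2 * e := by
    rw [natDegree_mul hf.ne_zero (dag_ne_zero hF hf.ne_zero), natDegree_dag hF hf0, two_mul]
  have hem : e = m := by
    have h1 := natDegree_le_of_dvd hprod hchar0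
    rw [hdegprod, hchard] at h1
    exact le_antisymm (by omega) (Nat.le_of_dvd (by omega) hme)
  have h0 : aeval T (f * dag hF f) = 0 := by
    have hass := associated_of_dvd_of_natDegree_le hprod hchar0 (by rw [hdegprod, hchard, hem])
    obtain ⟨w, hw⟩ := hass.symm.dvd
    rw [hw, map_mul, LinearMap.aeval_self_charpoly, zero_mul]
  obtain ⟨c', hc'⟩ := scalar_full_B hF x hf hfm hf0 hB (by rw [← he, hem]) h0
  exact (ha _).1 ⟨c', hc'⟩

end Cfsg.Agent.Lib.Helper48
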